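import Cfsg.Agent.Eq.Def_Classical
import Cfsg.Agent.Classical.Symp.Simple
import Cfsg.Agent.Classical.Symp.Card
import Cfsg.Agent.Classical.Orth.OrderStd
import Cfsg.Agent.Classical.Orth.Forms
import Cfsg.Agent.AutOrthField.FormClass
import Cfsg.Agent.LinAlg.Witt.Bases

/-!
Isometry groups of bilinear forms on abstract spaces, their transport to the standard symplectic and
odd-dimensional orthogonal groups, orthogonal sums, and centralisers of elements without unipotent part.
-/

set_option autoImplicit false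
set_option linter.unusedSectionVars false

namespace CfsgLib.PrimeGraphSpO

open Module
open scoped Matrix MatrixGroups

variable {F : Type*} [Field F] {V V' : Type*} [AddCommGroup V] [Module F V] [AddCommGroup V'] [Module F V']

/-- The linear automorphisms preserving a bilinear form. -/
def isoGroup (B : LinearMap.BilinForm F V) : Subgroup (V ≃ₗ[F] V) where
  carrier := {g | ∀ u v, B (g u) (g v) = B u v}
  one_mem' _ _ := rfl
  mul_mem' {g h} hg hh u v := (hg (h u) (h v)).trans (hh u v)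
  inv_mem' {g} hg u v := by
    have h := hg (g⁻¹ u) (g⁻¹ v)
    change B (g (g.symm u)) (g (g.symm v)) = _ at h
    rw [LinearEquiv.apply_symm_apply, LinearEquiv.apply_symm_apply] at h
    exact h.symm

lemma mem_isoGroup {B : LinearMap.BilinForm F V} {g : V ≃ₗ[F] V} :
    g ∈ isoGroup B ↔ ∀ u v, B (g u) (g v) = B u v := Iff.rfl

@[simp] lemma coe_mul_apply {B : LinearMap.BilinForm F V} (g h : isoGroup B) (v : V) :
    ((g * h : isoGroup B) : V ≃ₗ[F] V) v = (g : V ≃ₗ[F] V) ((h : V ≃ₗ[F] V) v) := rfl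

lemma iso_ext {B : LinearMap.BilinForm F V} {g h : isoGroup B}
    (e : ∀ v, (g : V ≃ₗ[F] V) v = (h : V ≃ₗ[F] V) v) : g = h :=
  Subtype.ext (LinearEquiv.ext e)

lemma inv_apply_self {B : LinearMap.BilinForm F V} (g : isoGroup B) (v : V) :
    ((g⁻¹ : isoGroup B) : V ≃ₗ[F] V) ((g : V ≃ₗ[F] V) v) = v := (g : V ≃ₗ[F] V).symm_apply_apply v

lemma apply_inv_self {B : LinearMap.BilinForm F V} (g : isoGroup B) (v : V) :
    (g : V ≃ₗ[F] V) (((g⁻¹ : isoGroup B) : V ≃ₗ[F] V) v) = v := (g : V ≃ₗ[F] V).apply_symm_apply v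

lemma form_inv_left {B : LinearMap.BilinForm F V} (g : isoGroup B) (u v : V) :
    B (((g⁻¹ : isoGroup B) : V ≃ₗ[F] V) u) v = B u ((g : V ≃ₗ[F] V) v) := by
  conv_lhs => rw [← g.2 (((g⁻¹ : isoGroup B) : V ≃ₗ[F] V) u) v, apply_inv_self]

instance instFiniteIsoGroup [Finite F] [FiniteDimensional F V] (B : LinearMap.BilinForm F V) :
    Finite (isoGroup B) := by
  have : Finite V := Module.finite_of_finite F
  exact Finite.of_injective (fun g : isoGroup B => ((g : V ≃ₗ[F] V) : V → V))
    fun g h e => iso_ext (congrFun e)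

/-- Minus the identity. -/
def negI (B : LinearMap.BilinForm F V) : isoGroup B :=
  ⟨LinearEquiv.neg F, fun u v => by simp⟩

@[simp] lemma negI_apply (B : LinearMap.BilinForm F V) (v : V) : ((negI B : isoGroup B) : V ≃ₗ[F] V) v = -v := rfl

lemma negI_mul_self (B : LinearMap.BilinForm F V) : negI B * negI B = 1 := iso_ext fun v => neg_neg v

lemma negI_comm {B : LinearMap.BilinForm F V} (g : isoGroup B) : negI B * g = g * negI B :=
  iso_ext fun v => by simp

/-- Transport along a similarity. -/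
def transport {B : LinearMap.BilinForm F V} {B' : LinearMap.BilinForm F V'} (U : V ≃ₗ[F] V') {d : F}
    (hd : d ≠ 0) (hU : ∀ u v, B' (U u) (U v) = d * B u v) : isoGroup B ≃* isoGroup B' where
  toFun g := ⟨U.symm.trans ((g : V ≃ₗ[F] V).trans U), fun u v => by
    show B' (U ((g : V ≃ₗ[F] V) (U.symm u))) (U ((g : V ≃ₗ[F] V) (U.symm v))) = _
    rw [hU, g.2, ← hU, U.apply_symm_apply, U.apply_symm_apply]⟩
  invFun g := ⟨U.trans ((g : V' ≃ₗ[F] V').trans U.symm), fun u v => by
    show B (U.symm ((g : V' ≃ₗ[F] V') (U u))) (U.symm ((g : V' ≃ₗ[F] V') (U v))) = _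
    refine mul_left_cancel₀ hd ?_
    rw [← hU, U.apply_symm_apply, U.apply_symm_apply, g.2, hU]⟩
  left_inv g := iso_ext fun v => by simp
  right_inv g := iso_ext fun v => by simp
  map_mul' g h := iso_ext fun v => by simp

@[simp] lemma transport_apply {B : LinearMap.BilinForm F V} {B' : LinearMap.BilinForm F V'} (U : V ≃ₗ[F] V')
    {d : F} (hd : d ≠ 0) (hU : ∀ u v, B' (U u) (U v) = d * B u v) (g : isoGroup B) (v : V') :
    ((transport U hd hU g : isoGroup B') : V' ≃ₗ[F] V') v = U ((g : V ≃ₗ[F] V) (U.symm v)) := rfl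

/-! ### The standard groups -/

/-- The standard symplectic form as a bilinear form. -/
noncomputable def sympB (n : ℕ) (F : Type*) [Field F] : LinearMap.BilinForm F (Fin n ⊕ Fin n → F) :=
  Matrix.toBilin' (Matrix.J (Fin n) F)

lemma sympB_apply (n : ℕ) (u v : Fin n ⊕ Fin n → F) : sympB n F u v = Cfsg.sympForm n F u v :=
  Matrix.toBilin'_apply' _ _ _

/-- The isometries of the standard symplectic form are the symplectic matrices. -/
noncomputable def stdSympEquiv (n : ℕ) : isoGroup (sympB n F) ≃* Matrix.symplecticGroup (Fin n) F where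
  toFun g := ⟨LinearMap.toMatrix' ((g : (Fin n ⊕ Fin n → F) ≃ₗ[F] (Fin n ⊕ Fin n → F)) :
      (Fin n ⊕ Fin n → F) →ₗ[F] (Fin n ⊕ Fin n → F)), by
    rw [Classical.Symp.mem_symplecticGroup_iff_form]
    intro u v
    rw [← Matrix.toLin'_apply, ← Matrix.toLin'_apply, Matrix.toLin'_toMatrix', ← sympB_apply, ← sympB_apply]
    exact g.2 u v⟩
  invFun g := ⟨{ Matrix.toLin' (g : Matrix (Fin n ⊕ Fin n) (Fin n ⊕ Fin n) F) with
      invFun := fun x => ((g⁻¹ : Matrix.symplecticGroup (Fin n) F) : Matrix (Fin n ⊕ Fin n) (Fin n ⊕ Fin n) F) *ᵥ x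
      left_inv := fun x => by
        show _ *ᵥ ((g : Matrix (Fin n ⊕ Fin n) (Fin n ⊕ Fin n) F) *ᵥ x) = x
        exact Classical.Symp.inv_mulVec_cancel g x
      right_inv := fun x => by
        show (g : Matrix (Fin n ⊕ Fin n) (Fin n ⊕ Fin n) F) *ᵥ _ = x
        exact Classical.Symp.mulVec_inv_cancel g x }, fun u v => by
    rw [sympB_apply, sympB_apply]
    exact Classical.Symp.form_mulVec g u v⟩
  left_inv g := iso_ext fun v => by
    show Matrix.toLin' (LinearMap.toMatrix' _) v = _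
    rw [Matrix.toLin'_toMatrix']; rfl
  right_inv g := Subtype.ext (by
    show LinearMap.toMatrix' (Matrix.toLin' _) = _
    rw [LinearMap.toMatrix'_toLin'])
  map_mul' g h := Subtype.ext (by
    show LinearMap.toMatrix' _ = LinearMap.toMatrix' _ * LinearMap.toMatrix' _
    rw [← LinearMap.toMatrix'_comp]; rfl)

variable {ι : Type} [Fintype ι] [DecidableEq ι]

/-- Linear automorphisms of coordinate space as invertible matrices. -/
noncomputable def glOf : ((ι → F) ≃ₗ[F] (ι → F)) →* GL ι F where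
  toFun g := ⟨LinearMap.toMatrix' (g : (ι → F) →ₗ[F] (ι → F)),
    LinearMap.toMatrix' (g.symm : (ι → F) →ₗ[F] (ι → F)),
    by rw [← LinearMap.toMatrix'_comp, LinearEquiv.comp_coe, LinearEquiv.symm_trans_self]; simp,
    by rw [← LinearMap.toMatrix'_comp, LinearEquiv.comp_coe, LinearEquiv.self_trans_symm]; simp⟩
  map_one' := Units.ext (by
    show LinearMap.toMatrix' LinearMap.id = _
    rw [LinearMap.toMatrix'_id]; rfl)
  map_mul' g h := Units.ext (by
    show LinearMap.toMatrix' _ = LinearMap.toMatrix' _ * LinearMap.toMatrix' _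
    rw [← LinearMap.toMatrix'_comp]; rfl)

lemma glOf_mulVec (g : (ι → F) ≃ₗ[F] (ι → F)) (v : ι → F) :
    ((glOf g : GL ι F) : Matrix ι ι F) *ᵥ v = g v := by
  show LinearMap.toMatrix' _ *ᵥ v = _
  rw [← Matrix.toLin'_apply, Matrix.toLin'_toMatrix']; rfl

/-- The isometries of the polar form are the isometries of the quadratic form. -/
noncomputable def polarEquiv {Q : (ι → F) → F} (hQ : Cfsg.Geo.IsNondegenerateQuadraticForm Q) (h2 : (2 : F) ≠ 0) :
    isoGroup (CfsgLib.OrthGeo.bform hQ) ≃* Cfsg.isometryGroup F Q where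
  toFun g := ⟨glOf g.1, CfsgLib.OrthGeo.mem_isometryGroup.2 fun v => by
    rw [glOf_mulVec]
    refine mul_left_cancel₀ h2 ?_
    rw [← CfsgLib.OrthGeo.b_self hQ, ← CfsgLib.OrthGeo.b_self hQ, g.2]⟩
  invFun k := ⟨{ Matrix.toLin' ((k : GL ι F) : Matrix ι ι F) with
      invFun := fun x => (((k : GL ι F)⁻¹ : GL ι F) : Matrix ι ι F) *ᵥ x
      left_inv := fun x => by
        show _ *ᵥ (((k : GL ι F) : Matrix ι ι F) *ᵥ x) = x
        rw [Matrix.mulVec_mulVec, ← Units.val_mul, inv_mul_cancel, Units.val_one, Matrix.one_mulVec]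
      right_inv := fun x => by
        show ((k : GL ι F) : Matrix ι ι F) *ᵥ _ = x
        rw [Matrix.mulVec_mulVec, ← Units.val_mul, mul_inv_cancel, Units.val_one, Matrix.one_mulVec] },
    fun u v => by
      show CfsgLib.OrthGeo.bform hQ (((k : GL ι F) : Matrix ι ι F) *ᵥ u) (((k : GL ι F) : Matrix ι ι F) *ᵥ v) = _
      have h := CfsgLib.OrthGeo.mem_isometryGroup.1 k.2
      rw [CfsgLib.OrthGeo.bform_apply, CfsgLib.OrthGeo.bform_apply]
      simp only [QuadraticMap.polar, ← Matrix.mulVec_add, h]⟩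
  left_inv g := iso_ext fun v => glOf_mulVec g.1 v
  right_inv k := Subtype.ext (Units.ext (Matrix.ext_of_mulVec_single fun j => by rw [glOf_mulVec]; rfl))
  map_mul' g h := Subtype.ext (map_mul glOf g.1 h.1)

/-- Every non-degenerate alternating form is the standard one. -/
theorem exists_sympEquiv [Finite F] [FiniteDimensional F V] {B : LinearMap.BilinForm F V} (hA : B.IsAlt)
    (hB : B.Nondegenerate) : ∃ n, finrank F V = 2 * n ∧ Nonempty (isoGroup B ≃* Matrix.symplecticGroup (Fin n) F) := by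
  obtain ⟨n, b, hn, hef, hee, hff⟩ := CfsgLib.LinAlg.Witt.exists_symplectic_basis B hA hB.ker_eq_bot
  let U := b.equiv (Pi.basisFun F (Fin n ⊕ Fin n)) (Equiv.sumComm _ _)
  have hU : (sympB n F).compl₁₂ (U : V →ₗ[F] _) (U : V →ₗ[F] _) = B := by
    refine b.ext fun i => b.ext fun j => ?_
    simp only [LinearMap.compl₁₂_apply, LinearEquiv.coe_coe, U, Basis.equiv_apply, Pi.basisFun_apply, sympB_apply]
    rcases i with i | i <;> rcases j with j | j
    · rw [hee]; exact Classical.Symp.form_stdE_stdE i j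
    · rw [hef]; exact Classical.Symp.form_stdE_stdF i j
    · rw [← LinearMap.IsAlt.neg hA (b (.inl j)) (b (.inr i)), hef]
      refine (Classical.Symp.form_stdF_stdE i j).trans ?_
      by_cases h : i = j
      · subst h; simp
      · simp [h, Ne.symm h]
    · rw [hff]; exact Classical.Symp.form_stdF_stdF i j
  refine ⟨n, hn, ⟨(transport U one_ne_zero fun u v => ?_).trans (stdSympEquiv n)⟩⟩
  rw [one_mul, ← hU]
  rfl

/-- In odd characteristic every non-degenerate symmetric form of odd dimension is similar to the standard one. -/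
theorem exists_oddEquiv [Fintype F] [FiniteDimensional F V] (h2 : (2 : F) ≠ 0) {B : LinearMap.BilinForm F V}
    (hS : ∀ u v, B u v = B v u) (hB : B.Nondegenerate) (n : ℕ) (hn : finrank F V = 2 * n + 1) :
    Nonempty (isoGroup B ≃* Cfsg.isometryGroup F (Cfsg.quadFormOdd n F)) := by
  have hd : finrank F (Unit ⊕ (Fin n ⊕ Fin n) → F) = finrank F V := by
    rw [finrank_fintype_fun_eq_card, hn]; simp; omega
  let T := LinearEquiv.ofFinrankEq (Unit ⊕ (Fin n ⊕ Fin n) → F) V hd
  let B₁ : LinearMap.BilinForm F (Unit ⊕ (Fin n ⊕ Fin n) → F) := B.compl₁₂ (T : _ →ₗ[F] V) (T : _ →ₗ[F] V)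
  have hpol : ∀ u v, QuadraticMap.polar (⇑B₁.toQuadraticMap) u v = 2 * B (T u) (T v) := fun u v => by
    rw [LinearMap.BilinMap.polar_toQuadraticMap]
    simp only [B₁, LinearMap.compl₁₂_apply, LinearEquiv.coe_coe]
    rw [hS (T v)]; ring
  have hQ' := CfsgLib.Classical.Orth.isNondegQF_of_quadraticForm B₁.toQuadraticMap ⟨fun x hx => T.map_eq_zero_iff.1
      (hB.1 _ fun y => ?_), fun y hy => T.map_eq_zero_iff.1 (hB.2 _ fun x => ?_)⟩
  rotate_left
  · have h := hx (T.symm y)
    rw [QuadraticMap.polarBilin_apply_apply, hpol, T.apply_symm_apply] at h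
    exact (mul_eq_zero.1 h).resolve_left h2
  · have h := hy (T.symm x)
    rw [QuadraticMap.polarBilin_apply_apply, hpol, T.apply_symm_apply] at h
    exact (mul_eq_zero.1 h).resolve_left h2
  have hQ := CfsgLib.OrthGeo.isNondegenerateQuadraticForm_quadFormOdd (F := F) n h2
  obtain ⟨P, d, hP⟩ := AutOrthField.exists_gl_similarity_odd hQ' hQ h2 ⟨n, by simp; omega⟩
  let L : (Unit ⊕ (Fin n ⊕ Fin n) → F) ≃ₗ[F] (Unit ⊕ (Fin n ⊕ Fin n) → F) :=
    { Matrix.toLin' (P : Matrix (Unit ⊕ (Fin n ⊕ Fin n)) (Unit ⊕ (Fin n ⊕ Fin n)) F) with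
      invFun := fun x => ((P⁻¹ : GL (Unit ⊕ (Fin n ⊕ Fin n)) F) : Matrix (Unit ⊕ (Fin n ⊕ Fin n)) (Unit ⊕ (Fin n ⊕ Fin n)) F) *ᵥ x
      left_inv := fun x => by
        show _ *ᵥ ((P : Matrix (Unit ⊕ (Fin n ⊕ Fin n)) (Unit ⊕ (Fin n ⊕ Fin n)) F) *ᵥ x) = x
        rw [Matrix.mulVec_mulVec, ← Units.val_mul, inv_mul_cancel, Units.val_one, Matrix.one_mulVec]
      right_inv := fun x => by
        show (P : Matrix (Unit ⊕ (Fin n ⊕ Fin n)) (Unit ⊕ (Fin n ⊕ Fin n)) F) *ᵥ _ = x
        rw [Matrix.mulVec_mulVec, ← Units.val_mul, mul_inv_cancel, Units.val_one, Matrix.one_mulVec] }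
  refine ⟨(transport (B' := CfsgLib.OrthGeo.bform hQ) (T.symm.trans L) (d := (d : F) * 2)
    (mul_ne_zero d.ne_zero h2) fun u v => ?_).trans (polarEquiv hQ h2)⟩
  rw [CfsgLib.OrthGeo.bform_apply]
  show QuadraticMap.polar _ ((P : Matrix (Unit ⊕ (Fin n ⊕ Fin n)) (Unit ⊕ (Fin n ⊕ Fin n)) F) *ᵥ T.symm u) ((P : Matrix (Unit ⊕ (Fin n ⊕ Fin n)) (Unit ⊕ (Fin n ⊕ Fin n)) F) *ᵥ T.symm v) = _
  have h := hpol (T.symm u) (T.symm v)
  simp only [LinearEquiv.apply_symm_apply, QuadraticMap.polar] at h ⊢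
  rw [← Matrix.mulVec_add, hP, hP, hP]
  linear_combination (d : F) * h

/-! ### Orthogonal sums -/

/-- The orthogonal sum of two forms. -/
def prodForm (B : LinearMap.BilinForm F V) (B' : LinearMap.BilinForm F V') : LinearMap.BilinForm F (V × V') :=
  B.compl₁₂ (LinearMap.fst F V V') (LinearMap.fst F V V') + B'.compl₁₂ (LinearMap.snd F V V') (LinearMap.snd F V V')

@[simp] lemma prodForm_apply (B : LinearMap.BilinForm F V) (B' : LinearMap.BilinForm F V') (u v : V × V') :
    prodForm B B' u v = B u.1 v.1 + B' u.2 v.2 := rfl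

lemma prodForm_nondegenerate {B : LinearMap.BilinForm F V} {B' : LinearMap.BilinForm F V'}
    (hB : B.Nondegenerate) (hB' : B'.Nondegenerate) : (prodForm B B').Nondegenerate := by
  refine ⟨fun x hx => Prod.ext (hB.1 _ fun y => ?_) (hB'.1 _ fun y => ?_),
    fun x hx => Prod.ext (hB.2 _ fun y => ?_) (hB'.2 _ fun y => ?_)⟩
  · simpa using hx (y, 0)
  · simpa using hx (0, y)
  · simpa using hx (y, 0)
  · simpa using hx (0, y)

lemma prodForm_symm {B : LinearMap.BilinForm F V} {B' : LinearMap.BilinForm F V'}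
    (hB : ∀ u v, B u v = B v u) (hB' : ∀ u v, B' u v = B' v u) (u v : V × V') :
    prodForm B B' u v = prodForm B B' v u := by simp [hB u.1, hB' u.2]

lemma prodForm_alt {B : LinearMap.BilinForm F V} {B' : LinearMap.BilinForm F V'}
    (hB : B.IsAlt) (hB' : B'.IsAlt) : (prodForm B B').IsAlt := fun u => by simp [hB u.1, hB' u.2]

/-- Isometries of the summands act on the sum. -/
def prodHom (B : LinearMap.BilinForm F V) (B' : LinearMap.BilinForm F V') :
    isoGroup B × isoGroup B' →* isoGroup (prodForm B B') where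
  toFun p := ⟨(p.1 : V ≃ₗ[F] V).prodCongr (p.2 : V' ≃ₗ[F] V'), fun u v => by simp [p.1.2 u.1, p.2.2 u.2]⟩
  map_one' := rfl
  map_mul' _ _ := rfl

@[simp] lemma prodHom_apply (B : LinearMap.BilinForm F V) (B' : LinearMap.BilinForm F V')
    (p : isoGroup B × isoGroup B') (v : V × V') :
    (prodHom B B' p).1 v =
      ((p.1 : V ≃ₗ[F] V) v.1, (p.2 : V' ≃ₗ[F] V') v.2) := rfl

lemma prodHom_injective (B : LinearMap.BilinForm F V) (B' : LinearMap.BilinForm F V') :
    Function.Injective (prodHom B B') := fun p q e => Prod.ext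
  (iso_ext fun v => congrArg Prod.fst (LinearEquiv.congr_fun (congrArg Subtype.val e) (v, 0)))
  (iso_ext fun v => congrArg Prod.snd (LinearEquiv.congr_fun (congrArg Subtype.val e) (0, v)))

/-! ### The fixed space of an element and its complement -/

variable {B : LinearMap.BilinForm F V} (g : isoGroup B)

/-- The fixed vectors. -/
def fixP : Submodule F V := LinearMap.ker (((g : V ≃ₗ[F] V) : V →ₗ[F] V) - LinearMap.id)

/-- The range of `g - 1`. -/
def movP : Submodule F V := LinearMap.range (((g : V ≃ₗ[F] V) : V →ₗ[F] V) - LinearMap.id)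

lemma mem_fixP {v : V} : v ∈ fixP g ↔ (g : V ≃ₗ[F] V) v = v := by simp [fixP, sub_eq_zero]

lemma sub_mem_movP (v : V) : (g : V ≃ₗ[F] V) v - v ∈ movP g := ⟨v, by simp⟩

lemma orth_left {u v : V} (hu : u ∈ fixP g) (hv : v ∈ movP g) : B u v = 0 := by
  obtain ⟨w, rfl⟩ := hv
  have h := g.2 u w
  rw [(mem_fixP g).1 hu] at h
  simp [h]

lemma orth_right {u v : V} (hu : u ∈ fixP g) (hv : v ∈ movP g) : B v u = 0 := by
  obtain ⟨w, rfl⟩ := hv
  have h := g.2 w u
  rw [(mem_fixP g).1 hu] at h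
  simp [h]

variable [FiniteDimensional F V] {k : ℕ} (hk : (k : F) ≠ 0) (hgk : g ^ k = 1)
include hk hgk

lemma isCompl : IsCompl (fixP g) (movP g) := by
  have hdisj : Disjoint (fixP g) (movP g) := by
    rw [Submodule.disjoint_def]
    rintro v hv ⟨w, hw⟩
    rw [mem_fixP] at hv
    simp only [LinearMap.sub_apply, LinearEquiv.coe_coe, LinearMap.id_coe, id_eq] at hw
    have hpow : ∀ i : ℕ, ((g ^ i : isoGroup B) : V ≃ₗ[F] V) w = w + (i : F) • v := by
      intro i
      induction i with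
      | zero => simp
      | succ i ih =>
        rw [pow_succ', coe_mul_apply, ih, map_add, map_smul, hv, sub_eq_iff_eq_add.1 hw, Nat.cast_succ, add_smul,
          one_smul]
        abel
    have h := hpow k
    rw [hgk] at h
    have : (k : F) • v = 0 := by
      have h' : w = w + (k : F) • v := h
      exact left_eq_add.1 h'
    exact (smul_eq_zero.1 this).resolve_left hk
  refine ⟨hdisj, codisjoint_iff.2 (Submodule.eq_top_of_finrank_eq ?_)⟩
  have h := Submodule.finrank_sup_add_finrank_inf_eq (fixP g) (movP g)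
  rw [hdisj.eq_bot, finrank_bot, add_zero] at h
  have h' := LinearMap.finrank_range_add_finrank_ker (((g : V ≃ₗ[F] V) : V →ₗ[F] V) - LinearMap.id)
  change finrank F (movP g) + finrank F (fixP g) = _ at h'
  omega

lemma finrank_fix_add : finrank F (fixP g) + finrank F (movP g) = finrank F V :=
  Submodule.finrank_add_eq_of_isCompl (isCompl g hk hgk)

lemma nondeg_fix (hB : B.Nondegenerate) : (B.restrict (fixP g)).Nondegenerate := by
  constructor
  · intro u hu
    refine Subtype.ext (hB.1 _ fun y => ?_)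
    obtain ⟨a, b, ha, hb, rfl⟩ := Submodule.codisjoint_iff_exists_add_eq.1 (isCompl g hk hgk).2 y
    rw [map_add, orth_left g u.2 hb, add_zero]
    exact hu ⟨a, ha⟩
  · intro u hu
    refine Subtype.ext (hB.2 _ fun y => ?_)
    obtain ⟨a, b, ha, hb, rfl⟩ := Submodule.codisjoint_iff_exists_add_eq.1 (isCompl g hk hgk).2 y
    rw [map_add, LinearMap.add_apply, orth_right g u.2 hb, add_zero]
    exact hu ⟨a, ha⟩

lemma nondeg_mov (hB : B.Nondegenerate) : (B.restrict (movP g)).Nondegenerate := by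
  constructor
  · intro u hu
    refine Subtype.ext (hB.1 _ fun y => ?_)
    obtain ⟨a, b, ha, hb, rfl⟩ := Submodule.codisjoint_iff_exists_add_eq.1 (isCompl g hk hgk).2 y
    rw [map_add, orth_right g ha u.2, zero_add]
    exact hu ⟨b, hb⟩
  · intro u hu
    refine Subtype.ext (hB.2 _ fun y => ?_)
    obtain ⟨a, b, ha, hb, rfl⟩ := Submodule.codisjoint_iff_exists_add_eq.1 (isCompl g hk hgk).2 y
    rw [map_add, LinearMap.add_apply, orth_left g ha u.2, zero_add]
    exact hu ⟨b, hb⟩

omit hk hgk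

/-- A linear equivalence of an invariant subspace. -/
noncomputable def restrictTo (x : V ≃ₗ[F] V) (U : Submodule F V) (h : ∀ u ∈ U, x u ∈ U) : U ≃ₗ[F] U :=
  have hinj : Function.Injective ((x : V →ₗ[F] V).restrict h) :=
    fun _ _ e => Subtype.ext (x.injective (congrArg Subtype.val e))
  LinearEquiv.ofBijective ((x : V →ₗ[F] V).restrict h) ⟨hinj, LinearMap.injective_iff_surjective.1 hinj⟩

@[simp] lemma coe_restrictTo (x : V ≃ₗ[F] V) (U : Submodule F V) (h : ∀ u ∈ U, x u ∈ U) (u : U) :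
    ((restrictTo x U h u : U) : V) = x u := by
  rfl

lemma comm_apply (x : Subgroup.centralizer ({g} : Set (isoGroup B))) (v : V) :
    (g : V ≃ₗ[F] V) ((x.1 : V ≃ₗ[F] V) v) = (x.1 : V ≃ₗ[F] V) ((g : V ≃ₗ[F] V) v) := by
  rw [← coe_mul_apply, ← coe_mul_apply]
  exact congrArg (fun z : isoGroup B => (z : V ≃ₗ[F] V) v) (Subgroup.mem_centralizer_singleton_iff.1 x.2).symm

lemma fix_invariant (x : Subgroup.centralizer ({g} : Set (isoGroup B))) :
    ∀ u ∈ fixP g, (x.1 : V ≃ₗ[F] V) u ∈ fixP g := fun u hu => by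
  rw [mem_fixP] at hu ⊢
  rw [comm_apply, hu]

lemma mov_invariant (x : Subgroup.centralizer ({g} : Set (isoGroup B))) :
    ∀ u ∈ movP g, (x.1 : V ≃ₗ[F] V) u ∈ movP g := by
  rintro _ ⟨w, rfl⟩
  refine ⟨(x.1 : V ≃ₗ[F] V) w, ?_⟩
  simp [comm_apply]

/-- The centraliser acts on the fixed space. -/
noncomputable def fixHom : Subgroup.centralizer ({g} : Set (isoGroup B)) →* isoGroup (B.restrict (fixP g)) where
  toFun x := ⟨restrictTo x.1.1 _ (fix_invariant g x), fun u v => x.1.2 u.1 v.1⟩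
  map_one' := iso_ext fun v => Subtype.ext (by simp)
  map_mul' x y := iso_ext fun v => Subtype.ext (by simp)

/-- The centraliser acts on the moved space. -/
noncomputable def movHom : Subgroup.centralizer ({g} : Set (isoGroup B)) →* isoGroup (B.restrict (movP g)) where
  toFun x := ⟨restrictTo x.1.1 _ (mov_invariant g x), fun u v => x.1.2 u.1 v.1⟩
  map_one' := iso_ext fun v => Subtype.ext (by simp)
  map_mul' x y := iso_ext fun v => Subtype.ext (by simp)

@[simp] lemma coe_fixHom (x : Subgroup.centralizer ({g} : Set (isoGroup B))) (u : fixP g) :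
    (((fixHom g x : isoGroup (B.restrict (fixP g))) : fixP g ≃ₗ[F] fixP g) u : V) = (x.1 : V ≃ₗ[F] V) u :=
  coe_restrictTo _ _ _ u

@[simp] lemma coe_movHom (x : Subgroup.centralizer ({g} : Set (isoGroup B))) (u : movP g) :
    (((movHom g x : isoGroup (B.restrict (movP g))) : movP g ≃ₗ[F] movP g) u : V) = (x.1 : V ≃ₗ[F] V) u :=
  coe_restrictTo _ _ _ u

/-- The element itself in its centraliser. -/
def selfC : Subgroup.centralizer ({g} : Set (isoGroup B)) := ⟨g, Subgroup.mem_centralizer_singleton_iff.2 rfl⟩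

lemma fixHom_selfC : fixHom g (selfC g) = 1 :=
  iso_ext fun u => Subtype.ext (by rw [coe_fixHom]; exact (mem_fixP g).1 u.2)

include hk hgk

lemma hom_injective {x y : Subgroup.centralizer ({g} : Set (isoGroup B))}
    (h1 : fixHom g x = fixHom g y) (h2 : movHom g x = movHom g y) : x = y := by
  refine Subtype.ext (iso_ext fun v => ?_)
  obtain ⟨a, b, ha, hb, rfl⟩ := Submodule.codisjoint_iff_exists_add_eq.1 (isCompl g hk hgk).2 v
  have e1 := congrArg (fun z : isoGroup (B.restrict (fixP g)) => (((z : fixP g ≃ₗ[F] fixP g) ⟨a, ha⟩ : fixP g) : V)) h1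
  have e2 := congrArg (fun z : isoGroup (B.restrict (movP g)) => (((z : movP g ≃ₗ[F] movP g) ⟨b, hb⟩ : movP g) : V)) h2
  simp only [coe_fixHom, coe_movHom] at e1 e2
  rw [map_add, map_add, e1, e2]

/-- Gluing isometries of the two parts. -/
noncomputable def glue : isoGroup (B.restrict (fixP g)) × isoGroup (B.restrict (movP g)) →* isoGroup B :=
  (transport (B := prodForm (B.restrict (fixP g)) (B.restrict (movP g))) (B' := B)
      (Submodule.prodEquivOfIsCompl _ _ (isCompl g hk hgk)) one_ne_zero (fun u v => by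
        rw [one_mul, Submodule.coe_prodEquivOfIsCompl', Submodule.coe_prodEquivOfIsCompl']
        simp [map_add, orth_left g u.1.2 v.2.2, orth_right g v.1.2 u.2.2])).toMonoidHom.comp (prodHom _ _)

lemma glue_injective : Function.Injective (glue g hk hgk) := by
  rw [glue, MonoidHom.coe_comp, MulEquiv.coe_toMonoidHom]
  exact (MulEquiv.injective _).comp (prodHom_injective _ _)

lemma glue_apply (p : isoGroup (B.restrict (fixP g)) × isoGroup (B.restrict (movP g))) (a : fixP g) (b : movP g) :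
    ((glue g hk hgk p : isoGroup B) : V ≃ₗ[F] V) ((a : V) + b) =
      ((p.1 : fixP g ≃ₗ[F] fixP g) a : V) + ((p.2 : movP g ≃ₗ[F] movP g) b : V) := by
  have h : Submodule.prodEquivOfIsCompl _ _ (isCompl g hk hgk) (a, b) = (a : V) + b :=
    Submodule.coe_prodEquivOfIsCompl' _ _ _ _
  show Submodule.prodEquivOfIsCompl _ _ (isCompl g hk hgk)
    ((prodHom _ _ p).1 ((Submodule.prodEquivOfIsCompl _ _ (isCompl g hk hgk)).symm ((a : V) + b))) = _
  rw [← h, LinearEquiv.symm_apply_apply]
  exact Submodule.coe_prodEquivOfIsCompl' _ _ _ _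

lemma glue_homs (x : Subgroup.centralizer ({g} : Set (isoGroup B))) :
    glue g hk hgk (fixHom g x, movHom g x) = x.1 := by
  refine iso_ext fun v => ?_
  obtain ⟨a, b, ha, hb, rfl⟩ := Submodule.codisjoint_iff_exists_add_eq.1 (isCompl g hk hgk).2 v
  rw [glue_apply g hk hgk _ ⟨a, ha⟩ ⟨b, hb⟩, coe_fixHom, coe_movHom, map_add]

end CfsgLib.PrimeGraphSpO
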