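import Cfsg.Agent.PrimeGraphSpO.Spinor
import Cfsg.Agent.Classical.Orth.CentreOmega
import Cfsg.Agent.OrthGeo.QuadOdd

/-!
`PSp₂ₙ(q)` and `PΩ₂ₙ₊₁(q)`, `q` odd, have the same prime graph.
-/

set_option autoImplicit false
set_option linter.unusedSectionVars false

namespace CfsgLib.PrimeGraphSpO

open Module
open scoped Matrix MatrixGroups

universe u v

section Group

variable {G H : Type*} [Group G] [Group H]

/-- An element of order `N` modulo the centre. -/
def HasOrdModCenter (G : Type*) [Group G] (N : ℕ) : Prop :=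
  ∃ x : G, orderOf ((x : G ⧸ Subgroup.center G)) = N

/-- An element of order `N` in the derived group. -/
def HasOrdDerived (G : Type*) [Group G] (N : ℕ) : Prop := ∃ x ∈ commutator G, orderOf x = N

lemma mk_pow_eq_one (x : G) (k : ℕ) : (x : G ⧸ Subgroup.center G) ^ k = 1 ↔ x ^ k ∈ Subgroup.center G := by
  rw [← QuotientGroup.mk_pow, QuotientGroup.eq_one_iff]

lemma HasOrdModCenter.map (e : G ≃* H) {N : ℕ} (h : HasOrdModCenter G N) : HasOrdModCenter H N := by
  obtain ⟨x, rfl⟩ := h
  refine ⟨e x, orderOf_eq_orderOf_iff.2 fun k => ?_⟩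
  rw [mk_pow_eq_one, mk_pow_eq_one, ← map_pow, Subgroup.mem_center_iff, Subgroup.mem_center_iff]
  refine ⟨fun hc y => e.injective ?_, fun hc y => ?_⟩
  · rw [map_mul, map_mul, hc]
  · obtain ⟨y, rfl⟩ := e.surjective y
    rw [← map_mul, ← map_mul, hc]

lemma HasOrdDerived.map (e : G ≃* H) {N : ℕ} (h : HasOrdDerived G N) : HasOrdDerived H N := by
  obtain ⟨x, hx, rfl⟩ := h
  refine ⟨e x, ?_, MulEquiv.orderOf_eq e x⟩
  have h' := Subgroup.mem_map_of_mem e.toMonoidHom hx
  rw [commutator_def, Subgroup.map_commutator] at h'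
  rw [commutator_def]
  exact Subgroup.commutator_mono le_top le_top h'

lemma hasOrdModCenter_of_odd (hz : ∀ z ∈ Subgroup.center G, z * z = 1) {N : ℕ} (hN : Odd N) {x : G}
    (hx : orderOf x = N) : HasOrdModCenter G N := by
  refine ⟨x, ?_⟩
  refine (orderOf_eq_orderOf_iff.2 fun k => ⟨fun h => ?_, fun h => ?_⟩).trans hx
  · rw [mk_pow_eq_one] at h
    have h2 := hz _ h
    rw [← pow_add, ← two_mul, ← orderOf_dvd_iff_pow_eq_one] at h2
    rw [← orderOf_dvd_iff_pow_eq_one]
    exact ((Nat.coprime_two_right.2 (hx ▸ hN)).dvd_of_dvd_mul_left h2)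
  · rw [← QuotientGroup.mk_pow, h, QuotientGroup.mk_one]

lemma exists_orderOf_of_modCenter [Finite G] {N : ℕ} (h : HasOrdModCenter G N) : ∃ x : G, orderOf x = N := by
  obtain ⟨x, rfl⟩ := h
  obtain ⟨c, hc⟩ := orderOf_map_dvd (QuotientGroup.mk' (Subgroup.center G)) x
  change orderOf x = orderOf ((x : G ⧸ Subgroup.center G)) * c at hc
  have hc0 : c ≠ 0 := by
    rintro rfl
    rw [mul_zero] at hc
    exact (orderOf_pos x).ne' hc
  refine ⟨x ^ c, ?_⟩
  rw [orderOf_pow' _ hc0, hc, Nat.gcd_mul_left_left, Nat.mul_div_cancel _ (Nat.pos_of_ne_zero hc0)]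

lemma hasOrdModCenter_two {s : ℕ} (hs : s.Prime) (hsodd : Odd s) {g y : G} (hg : orderOf g = s)
    (hgc : g ∉ Subgroup.center G) (hcomm : y * g = g * y) (hy : y ∉ Subgroup.center G)
    (hyy : y * y ∈ Subgroup.center G) : HasOrdModCenter G (2 * s) := by
  refine ⟨y * g, ?_⟩
  haveI : Fact s.Prime := ⟨hs⟩
  have h1 : orderOf ((y : G ⧸ Subgroup.center G)) = 2 :=
    orderOf_eq_prime (by rw [mk_pow_eq_one, sq]; exact hyy) fun h => hy (by
      rwa [QuotientGroup.eq_one_iff] at h)
  have h2 : orderOf ((g : G ⧸ Subgroup.center G)) = s :=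
    orderOf_eq_prime (by rw [← QuotientGroup.mk_pow, ← hg, pow_orderOf_eq_one, QuotientGroup.mk_one]) fun h => hgc (by
      rwa [QuotientGroup.eq_one_iff] at h)
  rw [QuotientGroup.mk_mul, Commute.orderOf_mul_eq_mul_orderOf_of_coprime, h1, h2]
  · show (y : G ⧸ Subgroup.center G) * g = g * y
    rw [← QuotientGroup.mk_mul, ← QuotientGroup.mk_mul, hcomm]
  · rw [h1, h2, Nat.coprime_two_left]; exact hsodd

lemma hasOrdDerived_two (hsq : ∀ a : G, a * a ∈ commutator G) {s : ℕ} (hs : s.Prime) (hsodd : Odd s)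
    {g a : G} (hg : orderOf g = s) (hcomm : a * g = g * a) (ha : orderOf (a * a) = 2) :
    HasOrdDerived G (2 * s) := by
  obtain ⟨k, hk⟩ := hsodd
  have hgmem : g ∈ commutator G := by
    have e : g = g ^ (k + 1) * g ^ (k + 1) := by
      rw [← pow_add, show k + 1 + (k + 1) = s + 1 by omega, pow_succ, ← hg, pow_orderOf_eq_one, one_mul]
    rw [e]; exact hsq _
  refine ⟨a * a * g, mul_mem (hsq a) hgmem, ?_⟩
  have hc : Commute (a * a) g := (Commute.mul_left hcomm hcomm : Commute (a * a) g)
  rw [hc.orderOf_mul_eq_mul_orderOf_of_coprime, ha, hg]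
  rw [ha, hg, Nat.coprime_two_left, hk]
  exact odd_two_mul_add_one k

lemma hasOrdDerived_of_odd (hsq : ∀ a : G, a * a ∈ commutator G) {N : ℕ} (hN : Odd N) {x : G}
    (hx : orderOf x = N) : HasOrdDerived G N := by
  obtain ⟨k, hk⟩ := hN
  refine ⟨x, ?_, hx⟩
  have e : x = x ^ (k + 1) * x ^ (k + 1) := by
    rw [← pow_add, show k + 1 + (k + 1) = N + 1 by omega, pow_succ, ← hx, pow_orderOf_eq_one, one_mul]
  rw [e]; exact hsq _

lemma orderOf_pair {s r : ℕ} {a : G} {c : H} (ha : orderOf a = s) (hc : orderOf c = r) (hco : Nat.Coprime s r) :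
    orderOf (a, c) = r * s := by
  rw [Prod.orderOf, ha, hc, hco.lcm_eq_mul, mul_comm]

end Group

variable {F : Type u} [Field F] [Fintype F]

/-- The standard odd-dimensional symmetric form. -/
noncomputable abbrev oddB (n : ℕ) (h2 : (2 : F) ≠ 0) : LinearMap.BilinForm F (Unit ⊕ (Fin n ⊕ Fin n) → F) :=
  CfsgLib.OrthGeo.bform (CfsgLib.OrthGeo.isNondegenerateQuadraticForm_quadFormOdd (F := F) n h2)

lemma sympB_alt (n : ℕ) : (sympB n F).IsAlt := fun u => by rw [sympB_apply]; exact Classical.Symp.form_self u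

lemma sympB_nondeg (n : ℕ) : (sympB n F).Nondegenerate :=
  ⟨fun u hu => Classical.Symp.eq_zero_of_form_eq_zero fun w => by rw [← sympB_apply]; exact hu w,
    fun u hu => Classical.Symp.eq_zero_of_form_eq_zero fun w => by
      rw [Classical.Symp.form_swap, ← sympB_apply, hu w, neg_zero]⟩

/-- The dot product in the plane. -/
noncomputable abbrev planeB (F : Type*) [Field F] : LinearMap.BilinForm F (Fin 2 → F) :=
  Matrix.toBilin' (1 : Matrix (Fin 2) (Fin 2) F)

lemma planeB_apply (u v : Fin 2 → F) : planeB F u v = u 0 * v 0 + u 1 * v 1 := by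
  rw [planeB, Matrix.toBilin'_apply', Matrix.one_mulVec]
  simp [dotProduct, Fin.sum_univ_two]

lemma planeB_symm (u v : Fin 2 → F) : planeB F u v = planeB F v u := by
  rw [planeB_apply, planeB_apply]; ring

lemma planeB_nondeg : (planeB F).Nondegenerate := by
  refine ⟨fun u hu => ?_, fun u hu => ?_⟩ <;>
  · have h0 := hu ![1, 0]
    have h1 := hu ![0, 1]
    simp [planeB_apply] at h0 h1
    funext i; fin_cases i <;> assumption

/-- The rotation of the plane. -/
noncomputable def rot (F : Type u) [Field F] [Fintype F] : isoGroup (planeB F) :=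
  ofSq
    { toFun := fun x => ![-x 1, x 0]
      map_add' := fun x y => by funext i; fin_cases i <;> simp [add_comm]
      map_smul' := fun c x => by funext i; fin_cases i <;> simp }
    (ε := (-1 : F)) (by ring) (LinearMap.ext fun x => by funext i; fin_cases i <;> simp [Module.End.mul_apply])
    (fun u v => by simp [planeB_apply]; ring)

lemma rot_sq : rot F * rot F = negI (planeB F) :=
  iso_ext fun x => by funext i; fin_cases i <;> simp [rot]

lemma negI_ne_one {V : Type v} [AddCommGroup V] [Module F V] (B : LinearMap.BilinForm F V) (h2 : (2 : F) ≠ 0)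
    [Nontrivial V] : negI B ≠ 1 := fun h => by
  obtain ⟨w, hw⟩ := exists_ne (0 : V)
  have h1 : -w = w := congrArg (fun z : isoGroup B => (z : V ≃ₗ[F] V) w) h
  rw [neg_eq_iff_add_eq_zero, ← two_smul F] at h1
  exact hw ((smul_eq_zero.1 h1).resolve_left h2)

lemma orderOf_prodHom {V : Type*} [AddCommGroup V] [Module F V] {V' : Type*} [AddCommGroup V'] [Module F V']
    (B : LinearMap.BilinForm F V) (B' : LinearMap.BilinForm F V') (p : isoGroup B × isoGroup B') :
    orderOf (prodHom B B' p) = orderOf p := orderOf_injective _ (prodHom_injective B B') p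

variable {V : Type v} [AddCommGroup V] [Module F V] [FiniteDimensional F V] {B : LinearMap.BilinForm F V}
variable (h2 : (2 : F) ≠ 0)
include h2

/-- Elements of the derived group move to the standard odd-dimensional group. -/
theorem toOdd (hS : ∀ u v, B u v = B v u) (hB : B.Nondegenerate) {n : ℕ} (hn : finrank F V = 2 * n + 1) {N : ℕ}
    (h : HasOrdDerived (isoGroup B) N) : HasOrdDerived (Cfsg.isometryGroup F (Cfsg.quadFormOdd n F)) N := by
  obtain ⟨e⟩ := exists_oddEquiv h2 hS hB n hn
  exact h.map e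

/-- Elements modulo the centre move to the standard symplectic group. -/
theorem toSymp (hA : B.IsAlt) (hB : B.Nondegenerate) {n : ℕ} (hn : finrank F V = 2 * n) {N : ℕ}
    (h : HasOrdModCenter (isoGroup B) N) : HasOrdModCenter (Matrix.symplecticGroup (Fin n) F) N := by
  obtain ⟨m, hm, ⟨e⟩⟩ := exists_sympEquiv hA hB
  obtain rfl : m = n := by omega
  exact h.map e

theorem odd_sq (hS : ∀ u v, B u v = B v u) (hB : B.Nondegenerate) {n : ℕ} (hn : finrank F V = 2 * n + 1)
    (hn1 : 1 ≤ n) (a : isoGroup B) : a * a ∈ commutator (isoGroup B) := by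
  obtain ⟨e⟩ := exists_oddEquiv h2 hS hB n hn
  exact sq_mem_commutator hn1 h2 e a

theorem center_symp (hA : B.IsAlt) (hB : B.Nondegenerate) {n : ℕ} (hn : finrank F V = 2 * n) (hn1 : 1 ≤ n)
    (x : isoGroup B) : x ∈ Subgroup.center (isoGroup B) ↔ x = 1 ∨ x = negI B := by
  obtain ⟨m, hm, ⟨e⟩⟩ := exists_sympEquiv hA hB
  obtain rfl : m = n := by omega
  haveI : Nontrivial V := Module.nontrivial_of_finrank_pos (R := F) (by omega)
  exact center_iff hn1 h2 e ‹_› x

theorem center_symp_sq (hA : B.IsAlt) (hB : B.Nondegenerate) {n : ℕ} (hn : finrank F V = 2 * n) (hn1 : 1 ≤ n)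
    {z : isoGroup B} (hz : z ∈ Subgroup.center (isoGroup B)) : z * z = 1 := by
  rcases (center_symp h2 hA hB hn hn1 z).1 hz with rfl | rfl
  · rw [one_mul]
  · exact negI_mul_self B

omit h2

lemma fix_ne_bot_of_apply {g : isoGroup B} {w : V} (hw : w ≠ 0) (h : (g : V ≃ₗ[F] V) w = w) : fixP g ≠ ⊥ :=
  fun e => hw ((Submodule.eq_bot_iff _).1 e w ((mem_fixP g).2 h))

/-- A common step of the transfer: an element of order `r * s` on the twisted moved space plus a standard part. -/
theorem transfer {r s : ℕ} (hr : r.Prime) (hs : s.Prime) (hrs : r ≠ s) (hsp : (s : F) ≠ 0) (hsodd : Odd s)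
    {x : isoGroup B} (hx : orderOf x = r * s) {C : Type*} [AddCommGroup C] [Module F C] [FiniteDimensional F C]
    (γ : LinearMap.BilinForm F C)
    (hfix : r ∣ Nat.card (isoGroup (B.restrict (fixP (x ^ r)))) → r ∣ Nat.card (isoGroup γ)) :
    ∃ z : isoGroup (prodForm (twist (x ^ r)) γ), orderOf z = r * s := by
  haveI : Fact r.Prime := ⟨hr⟩
  haveI : Fact s.Prime := ⟨hs⟩
  set g := x ^ r with hgdef
  have hg : orderOf g = s := by
    rw [hgdef, orderOf_pow' _ hr.ne_zero, hx, Nat.gcd_mul_right_left, Nat.mul_div_cancel_left _ hr.pos]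
  have hgs : g ^ s = 1 := by rw [← hg, pow_orderOf_eq_one]
  let xc : Subgroup.centralizer ({g} : Set (isoGroup B)) :=
    ⟨x, Subgroup.mem_centralizer_singleton_iff.2 (by rw [hgdef, ← pow_succ, ← pow_succ'])⟩
  have hself : xc ^ r = selfC g := Subtype.ext (by simp [xc, selfC, hgdef])
  set a := twistHom g xc with ha
  set c := fixHom g xc with hc
  have har : orderOf (a ^ r) = s := by rw [ha, ← map_pow, hself, orderOf_twistHom_selfC g hsp hsodd hgs, hg]
  have hcr : c ^ r = 1 := by rw [hc, ← map_pow, hself, fixHom_selfC]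
  have hxc : orderOf xc = r * s := by rw [← hx, ← Subgroup.orderOf_coe]
  have hdvd : orderOf a ∣ r * s := hxc ▸ orderOf_map_dvd (twistHom g) xc
  have hsd : s ∣ orderOf a := har ▸ orderOf_pow_dvd r
  obtain ⟨e, he⟩ := hsd
  have he' : e ∣ r := by
    rw [he, mul_comm s e] at hdvd
    exact Nat.dvd_of_mul_dvd_mul_right hs.pos hdvd
  rcases (Nat.dvd_prime hr).1 he' with rfl | rfl
  · rw [mul_one] at he
    have hc1 : c ≠ 1 := fun hc1 => by
      have h1 : xc ^ s = 1 := homs_injective g hsp hsodd hgs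
        (by rw [map_pow, ← hc, hc1, one_pow, map_one]) (by rw [map_pow, ← ha, ← he, pow_orderOf_eq_one, map_one])
      have h3 := orderOf_dvd_of_pow_eq_one h1
      rw [hxc] at h3
      have h4 := Nat.le_of_dvd hs.pos h3
      have h5 : 2 * s ≤ r * s := Nat.mul_le_mul_right s hr.two_le
      have := hs.pos
      omega
    obtain ⟨c', hc'⟩ := exists_prime_orderOf_dvd_card' r (hfix (orderOf_eq_prime hcr hc1 ▸ orderOf_dvd_natCard c))
    exact ⟨prodHom _ _ (a, c'), by
      rw [orderOf_prodHom, orderOf_pair he hc' ((Nat.coprime_primes hs hr).2 hrs.symm)]⟩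
  · exact ⟨prodHom _ _ (a, 1), by rw [orderOf_prodHom, Prod.orderOf, he, orderOf_one, Nat.lcm_one_right, mul_comm]⟩

include h2

/-- An element of odd prime order with a fixed vector in a symplectic group gives a half-central element. -/
theorem hasHalfCentral_of_fix (hA : B.IsAlt) {g : isoGroup B} {s : ℕ} (hsp : (s : F) ≠ 0) (hg : g ^ s = 1)
    (hg1 : g ≠ 1) (hfix : fixP g ≠ ⊥) : HasHalfCentral g := by
  set p : isoGroup (B.restrict (fixP g)) × isoGroup (B.restrict (movP g)) := (negI _, 1) with hp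
  set y := glue g hsp hg p with hy
  have hgg : glue g hsp hg (fixHom g (selfC g), movHom g (selfC g)) = g := glue_homs g hsp hg (selfC g)
  have hcomm : y * g = g * y := by
    conv_lhs => rw [← hgg]
    conv_rhs => rw [← hgg]
    rw [hy, ← map_mul, ← map_mul, hp, fixHom_selfC]
    simp
  have hyy : y * y = 1 := by
    rw [hy, ← map_mul, hp, Prod.mk_mul_mk, negI_mul_self, one_mul, ← Prod.one_eq_mk, map_one]
  refine ⟨y, hcomm, Or.inl hyy, fun e => ?_, fun e => ?_⟩
  · haveI : Nontrivial (fixP g) := Submodule.nontrivial_iff_ne_bot.2 hfix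
    have e1 : p = 1 := glue_injective g hsp hg (by rw [map_one]; exact e)
    exact negI_ne_one (B.restrict (fixP g)) h2 (congrArg Prod.fst e1)
  · have hmov : movP g ≠ ⊥ := fun hm => hg1 (iso_ext fun v => by
      have := sub_mem_movP g v
      rw [hm, Submodule.mem_bot, sub_eq_zero] at this
      exact this)
    obtain ⟨w, hw, hw0⟩ := Submodule.exists_mem_ne_zero_of_ne_bot hmov
    have e1 : (y : V ≃ₗ[F] V) w = -w := by rw [e]; rfl
    have e2 : (y : V ≃ₗ[F] V) ((0 : fixP g) + (⟨w, hw⟩ : movP g)) = ((0 : fixP g) : V) + w := by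
      rw [hy, glue_apply, hp]; simp
    simp only [ZeroMemClass.coe_zero, zero_add] at e2
    rw [e1, neg_eq_iff_add_eq_zero, ← two_smul F] at e2
    exact hw0 ((smul_eq_zero.1 e2).resolve_left h2)

/-- A half-central element gives an element of order `2s` modulo the centre. -/
theorem modCenter_of_half (hA : B.IsAlt) (hB : B.Nondegenerate) {n : ℕ} (hn : finrank F V = 2 * n) (hn1 : 1 ≤ n)
    {s : ℕ} (hs : s.Prime) (hsodd : Odd s) {g : isoGroup B} (hg : orderOf g = s) (h : HasHalfCentral g) :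
    HasOrdModCenter (isoGroup B) (2 * s) := by
  obtain ⟨y, hcomm, hyy, hy1, hyn⟩ := h
  refine hasOrdModCenter_two hs hsodd hg (fun hc => ?_) hcomm (fun hc => ?_) ?_
  · have h1 := orderOf_dvd_of_pow_eq_one (show g ^ 2 = 1 by rw [sq]; exact center_symp_sq h2 hA hB hn hn1 hc)
    rw [hg] at h1
    obtain rfl := (Nat.prime_dvd_prime_iff_eq hs Nat.prime_two).1 h1
    exact absurd hsodd (by decide)
  · rcases (center_symp h2 hA hB hn hn1 y).1 hc with h | h
    · exact hy1 h
    · exact hyn h
  · refine (center_symp h2 hA hB hn hn1 _).2 ?_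
    rcases hyy with h | h <;> simp [h]

/-- An element of odd prime order with a fixed vector in a symplectic group gives order `2s` in the orthogonal one. -/
theorem derived_of_fix (hA : B.IsAlt) (hB : B.Nondegenerate) {n : ℕ} (hn : finrank F V = 2 * n) {s : ℕ}
    (hs : s.Prime) (hsodd : Odd s) (hsp : (s : F) ≠ 0) {g : isoGroup B} (hg : orderOf g = s) (hfix : fixP g ≠ ⊥) :
    HasOrdDerived (Cfsg.isometryGroup F (Cfsg.quadFormOdd n F)) (2 * s) := by
  have hgs : g ^ s = 1 := by rw [← hg, pow_orderOf_eq_one]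
  obtain ⟨k, hk, -⟩ := exists_sympEquiv (B := B.restrict (fixP g)) (fun u => hA u.1) (nondeg_fix g hsp hgs hB)
  have hk1 : 1 ≤ k := by
    have h1 : 1 ≤ finrank F (fixP g) := Submodule.one_le_finrank_iff.2 hfix
    omega
  have hsum := finrank_fix_add g hsp hgs
  set γ := prodForm (planeB F) (oddB (k - 1) h2) with hγ
  set β := prodForm (twist g) γ with hβ
  have hdim : finrank F (movP g × ((Fin 2 → F) × (Unit ⊕ (Fin (k - 1) ⊕ Fin (k - 1)) → F))) = 2 * n + 1 := by
    rw [Module.finrank_prod, Module.finrank_prod, finrank_fintype_fun_eq_card, finrank_fintype_fun_eq_card]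
    simp; omega
  have hS : ∀ u v, β u v = β v u := prodForm_symm (twist_symm g hA)
    (prodForm_symm planeB_symm (CfsgLib.OrthGeo.b_symm _))
  have hnd : β.Nondegenerate := prodForm_nondegenerate (twist_nondeg g hsp hsodd hgs hB)
    (prodForm_nondegenerate planeB_nondeg (CfsgLib.OrthGeo.b_nondeg _))
  refine toOdd h2 hS hnd hdim (hasOrdDerived_two (odd_sq h2 hS hnd hdim (by omega)) hs hsodd
    (g := prodHom _ _ (twistHom g (selfC g), 1)) (a := prodHom _ _ (1, prodHom _ _ (rot F, 1))) ?_ ?_ ?_)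
  · rw [orderOf_prodHom, Prod.orderOf, orderOf_twistHom_selfC g hsp hsodd hgs, hg, orderOf_one, Nat.lcm_one_right]
  · rw [← map_mul, ← map_mul]; simp
  · rw [← map_mul, orderOf_prodHom, Prod.mk_mul_mk, one_mul, ← map_mul, Prod.orderOf, orderOf_one,
      orderOf_prodHom, Prod.mk_mul_mk, one_mul, rot_sq, Prod.orderOf, orderOf_one, Nat.lcm_one_right,
      Nat.lcm_one_left]
    haveI : Fact (Nat.Prime 2) := ⟨Nat.prime_two⟩
    exact orderOf_eq_prime (by rw [sq, negI_mul_self]) (negI_ne_one _ h2)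

/-- Symplectic to orthogonal. -/
theorem sympToOdd (hA : B.IsAlt) (hB : B.Nondegenerate) {n : ℕ} (hn : finrank F V = 2 * n) (hn1 : 1 ≤ n)
    {r s : ℕ} (hr : r.Prime) (hs : s.Prime) (hrs : r ≠ s) (hsp : (s : F) ≠ 0) (hsodd : Odd s)
    (h : HasOrdModCenter (isoGroup B) (r * s)) :
    HasOrdDerived (Cfsg.isometryGroup F (Cfsg.quadFormOdd n F)) (r * s) := by
  rcases hr.eq_two_or_odd' with rfl | hrodd
  · obtain ⟨x, hx⟩ := h
    have hx2 : x ^ (2 * s) * x ^ (2 * s) = 1 := center_symp_sq h2 hA hB hn hn1 (by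
      rw [← mk_pow_eq_one, ← hx, pow_orderOf_eq_one])
    haveI : Fact s.Prime := ⟨hs⟩
    set g := x ^ 4 with hgdef
    set y := x ^ s with hydef
    have hs2 : ¬ (2 * s ∣ 4) := fun hd => by
      have h1 : s ∣ 2 := by
        obtain ⟨c, hc⟩ := hd
        exact ⟨c, by linarith⟩
      obtain rfl := (Nat.prime_dvd_prime_iff_eq hs Nat.prime_two).1 h1
      exact absurd hsodd (by decide)
    have hg : orderOf g = s := orderOf_eq_prime
      (by rw [hgdef, ← pow_mul, show 4 * s = 2 * s + 2 * s by ring, pow_add, hx2]) fun h1 => hs2 (by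
        rw [← hx]
        exact orderOf_dvd_of_pow_eq_one (by rw [← QuotientGroup.mk_pow, ← hgdef, h1, QuotientGroup.mk_one]))
    have hgs : g ^ s = 1 := by rw [← hg, pow_orderOf_eq_one]
    by_cases hfix : fixP g = ⊥
    swap
    · exact derived_of_fix h2 hA hB hn hs hsodd hsp hg hfix
    have hcomm : y * g = g * y := by rw [hgdef, hydef, ← pow_add, ← pow_add, add_comm]
    have hync : y ∉ Subgroup.center (isoGroup B) := fun hc => by
      have h1 : orderOf ((x : isoGroup B ⧸ Subgroup.center (isoGroup B))) ∣ s :=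
        orderOf_dvd_of_pow_eq_one ((mk_pow_eq_one x s).2 hc)
      rw [hx] at h1
      have := Nat.le_of_dvd hs.pos h1
      have := hs.pos
      omega
    have hy1 : y ≠ 1 := fun e => hync (e ▸ one_mem _)
    have hyn : y ≠ negI B := fun e => hync ((center_symp h2 hA hB hn hn1 y).2 (Or.inr e))
    have hyy : y * y ∈ Subgroup.center (isoGroup B) := by
      rw [hydef, ← pow_add, ← two_mul, ← mk_pow_eq_one, ← hx, pow_orderOf_eq_one]
    rcases (center_symp h2 hA hB hn hn1 _).1 hyy with hy2 | hy2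
    · have h2' : ((2 : ℕ) : F) ≠ 0 := by exact_mod_cast h2
      have hys : y ^ 2 = 1 := by rw [sq, hy2]
      have hmy : movP y ≠ ⊥ := fun hm => hy1 (iso_ext fun v => by
        have := sub_mem_movP y v
        rw [hm, Submodule.mem_bot, sub_eq_zero] at this
        exact this)
      have hfy : fixP y ≠ ⊥ := fun hm => hyn (iso_ext fun v => by
        have h1 : (y : V ≃ₗ[F] V) v + v ∈ fixP y := (mem_fixP y).2 (by
          rw [map_add, ← coe_mul_apply, hy2]
          exact add_comm _ _)
        rw [hm, Submodule.mem_bot, add_eq_zero_iff_eq_neg] at h1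
        exact h1)
      let gc : Subgroup.centralizer ({y} : Set (isoGroup B)) := ⟨g, Subgroup.mem_centralizer_singleton_iff.2 hcomm.symm⟩
      set k := glue y h2' hys (fixHom y gc, 1) with hk
      have hks : k ^ s = 1 := by
        rw [hk, ← map_pow, Prod.pow_mk, one_pow, ← map_pow, show gc ^ s = 1 from Subtype.ext hgs, map_one,
          ← Prod.one_eq_mk, map_one]
      have hk1 : k ≠ 1 := fun e => by
        have e1 : fixHom y gc = 1 := congrArg Prod.fst (glue_injective y h2' hys (e.trans (map_one _).symm))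
        obtain ⟨w, hw, hw0⟩ := Submodule.exists_mem_ne_zero_of_ne_bot hfy
        refine fix_ne_bot_of_apply (g := g) hw0 ?_ hfix
        have e2 := congrArg (fun z : isoGroup (B.restrict (fixP y)) =>
          (((z : fixP y ≃ₗ[F] fixP y) ⟨w, hw⟩ : fixP y) : V)) e1
        simpa [coe_fixHom] using e2
      obtain ⟨w, hw, hw0⟩ := Submodule.exists_mem_ne_zero_of_ne_bot hmy
      refine derived_of_fix h2 hA hB hn hs hsodd hsp (g := k) (orderOf_eq_prime hks hk1)
        (fix_ne_bot_of_apply hw0 ?_)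
      have e2 : (k : V ≃ₗ[F] V) ((0 : fixP y) + (⟨w, hw⟩ : movP y)) = ((0 : fixP y) : V) + w := by
        rw [hk, glue_apply]; simp
      simpa using e2
    · have hsum := finrank_fix_add g hsp hgs
      rw [hfix, finrank_bot, zero_add] at hsum
      set β := prodForm (twist g) (oddB 0 h2) with hβ
      have hdim : finrank F (movP g × (Unit ⊕ (Fin 0 ⊕ Fin 0) → F)) = 2 * n + 1 := by
        rw [Module.finrank_prod, finrank_fintype_fun_eq_card]
        simp; omega
      have hS : ∀ u v, β u v = β v u := prodForm_symm (twist_symm g hA) (CfsgLib.OrthGeo.b_symm _)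
      have hnd : β.Nondegenerate := prodForm_nondegenerate (twist_nondeg g hsp hsodd hgs hB)
        (CfsgLib.OrthGeo.b_nondeg _)
      let yc : Subgroup.centralizer ({g} : Set (isoGroup B)) := ⟨y, Subgroup.mem_centralizer_singleton_iff.2 hcomm⟩
      refine toOdd h2 hS hnd hdim (hasOrdDerived_two (odd_sq h2 hS hnd hdim hn1) hs hsodd
        (g := prodHom _ _ (twistHom g (selfC g), 1)) (a := prodHom _ _ (twistHom g yc, 1)) ?_ ?_ ?_)
      · rw [orderOf_prodHom, Prod.orderOf, orderOf_twistHom_selfC g hsp hsodd hgs, hg, orderOf_one, Nat.lcm_one_right]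
      · rw [← map_mul, ← map_mul, Prod.mk_mul_mk, Prod.mk_mul_mk, ← map_mul, ← map_mul,
          show yc * selfC g = selfC g * yc from Subtype.ext hcomm]
      · rw [← map_mul, orderOf_prodHom, Prod.mk_mul_mk, one_mul, ← map_mul, Prod.orderOf, orderOf_one,
          Nat.lcm_one_right]
        haveI : Fact (Nat.Prime 2) := ⟨Nat.prime_two⟩
        have hne : Nontrivial (movP g) := Module.nontrivial_of_finrank_pos (R := F) (by omega)
        have e : twistHom g (yc * yc) = negI (twist g) := iso_ext fun u => Subtype.ext (by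
          rw [coe_twistHom, show (yc * yc).1 = negI B from hy2]
          rfl)
        rw [e]
        exact orderOf_eq_prime (by rw [sq, negI_mul_self]) (negI_ne_one _ h2)
  · obtain ⟨x, hx⟩ := exists_orderOf_of_modCenter h
    set g := x ^ r with hgdef
    have hgs : g ^ s = 1 := by rw [hgdef, ← pow_mul, ← hx, pow_orderOf_eq_one]
    obtain ⟨k, hk, ⟨ek⟩⟩ := exists_sympEquiv (B := B.restrict (fixP g)) (fun u => hA u.1) (nondeg_fix g hsp hgs hB)
    obtain ⟨z, hz⟩ := transfer hr hs hrs hsp hsodd hx (oddB k h2) (fun hd => by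
      rw [Nat.card_congr ek.toEquiv, Classical.Symp.card_symplecticGroup] at hd
      rw [Nat.card_congr (polarEquiv _ h2).toEquiv, Classical.Orth.card_isometryGroup_odd h2, mul_assoc]
      exact Dvd.dvd.mul_left hd 2)
    have hsum := finrank_fix_add g hsp hgs
    have hdim : finrank F (movP g × (Unit ⊕ (Fin k ⊕ Fin k) → F)) = 2 * n + 1 := by
      rw [Module.finrank_prod, finrank_fintype_fun_eq_card]
      simp; omega
    have hS : ∀ u v, prodForm (twist g) (oddB k h2) u v = prodForm (twist g) (oddB k h2) v u :=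
      prodForm_symm (twist_symm g hA) (CfsgLib.OrthGeo.b_symm _)
    have hnd : (prodForm (twist g) (oddB k h2)).Nondegenerate :=
      prodForm_nondegenerate (twist_nondeg g hsp hsodd hgs hB) (CfsgLib.OrthGeo.b_nondeg _)
    exact toOdd h2 hS hnd hdim (hasOrdDerived_of_odd (odd_sq h2 hS hnd hdim hn1) (hrodd.mul hsodd) hz)

/-- Orthogonal to symplectic. -/
theorem oddToSymp (hS : ∀ u v, B u v = B v u) (hB : B.Nondegenerate) {n : ℕ} (hn : finrank F V = 2 * n + 1)
    (hn1 : 1 ≤ n) {r s : ℕ} (hr : r.Prime) (hs : s.Prime) (hrs : r ≠ s) (hsp : (s : F) ≠ 0) (hsodd : Odd s)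
    (h : HasOrdDerived (isoGroup B) (r * s)) :
    HasOrdModCenter (Matrix.symplecticGroup (Fin n) F) (r * s) := by
  obtain ⟨x, hxmem, hx⟩ := h
  have hg : orderOf (x ^ r) = s := by
    rw [orderOf_pow' _ hr.ne_zero, hx, Nat.gcd_mul_right_left, Nat.mul_div_cancel_left _ hr.pos]
  set g := x ^ r with hgdef
  have hgs : g ^ s = 1 := by rw [← hg, pow_orderOf_eq_one]
  have hg1 : g ≠ 1 := fun e => hs.ne_one (by rw [← hg, e, orderOf_one])
  obtain ⟨j, hj, ⟨ej⟩⟩ := exists_sympEquiv (twist_alt g hS) (twist_nondeg g hsp hsodd hgs hB)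
  have hsum := finrank_fix_add g hsp hgs
  have hj1 : 1 ≤ j := by
    by_contra hj0
    refine hg1 (iso_ext fun v => ?_)
    have h1 := sub_mem_movP g v
    rw [Submodule.finrank_eq_zero.1 (show finrank F (movP g) = 0 by omega), Submodule.mem_bot, sub_eq_zero] at h1
    exact h1
  have hjn : j ≤ n := by omega
  set β := prodForm (twist g) (sympB (n - j) F) with hβ
  have hdim : finrank F (movP g × (Fin (n - j) ⊕ Fin (n - j) → F)) = 2 * n := by
    rw [Module.finrank_prod, finrank_fintype_fun_eq_card]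
    simp; omega
  have hA : β.IsAlt := prodForm_alt (twist_alt g hS) (sympB_alt _)
  have hnd : β.Nondegenerate := prodForm_nondegenerate (twist_nondeg g hsp hsodd hgs hB) (sympB_nondeg _)
  rcases hr.eq_two_or_odd' with rfl | hrodd
  · by_cases hj' : j < n
    · have hG : orderOf (prodHom (twist g) (sympB (n - j) F) (twistHom g (selfC g), 1)) = s := by
        rw [orderOf_prodHom, Prod.orderOf, orderOf_twistHom_selfC g hsp hsodd hgs, hg, orderOf_one, Nat.lcm_one_right]
      haveI : Nonempty (Fin (n - j)) := ⟨⟨0, by omega⟩⟩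
      obtain ⟨c, hc⟩ := exists_ne (0 : Fin (n - j) ⊕ Fin (n - j) → F)
      refine toSymp h2 hA hnd hdim (modCenter_of_half h2 hA hnd hdim hn1 hs hsodd hG
        (hasHalfCentral_of_fix h2 hA hsp (by rw [← hG, pow_orderOf_eq_one])
          (fun e => hs.ne_one (by rw [← hG, e, orderOf_one]))
          (fix_ne_bot_of_apply (w := ((0 : movP g), c)) (by simp [hc]) (by simp))))
    obtain rfl : j = n := by omega
    have hfix1 : finrank F (fixP g) = 1 := by omega
    set g' := twistHom g (selfC g) with hg'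
    have hg'o : orderOf g' = s := by rw [hg', orderOf_twistHom_selfC g hsp hsodd hgs, hg]
    refine toSymp h2 (twist_alt g hS) (twist_nondeg g hsp hsodd hgs hB) hj
      (modCenter_of_half h2 (twist_alt g hS) (twist_nondeg g hsp hsodd hgs hB) hj hn1 hs hsodd hg'o ?_)
    set t := x ^ s with htdef
    have ht1 : t ≠ 1 := fun e => by
      have h1 := orderOf_dvd_of_pow_eq_one e
      rw [hx] at h1
      have := Nat.le_of_dvd hs.pos h1
      have := hs.pos
      omega
    have ht2 : t * t = 1 := by rw [htdef, ← pow_add, ← two_mul, ← hx, pow_orderOf_eq_one]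
    have htmem : t ∈ commutator (isoGroup B) := pow_mem hxmem s
    let tc : Subgroup.centralizer ({g} : Set (isoGroup B)) :=
      ⟨t, Subgroup.mem_centralizer_singleton_iff.2 (by rw [htdef, hgdef, ← pow_add, ← pow_add, add_comm])⟩
    have htc2 : tc * tc = 1 := Subtype.ext ht2
    set a := twistHom g tc with ha
    by_cases ha1 : a ≠ 1 ∧ a ≠ negI (twist g)
    · refine ⟨a, ?_, Or.inl (by rw [ha, ← map_mul, htc2, map_one]), ha1.1, ha1.2⟩
      rw [ha, hg', ← map_mul, ← map_mul,
        show tc * selfC g = selfC g * tc from Subtype.ext (by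
          show t * g = g * t
          rw [htdef, hgdef, ← pow_add, ← pow_add, add_comm])]
    -- `t` acts as `±1` on both parts
    have hmovt : movHom g tc = 1 ∨ movHom g tc = negI _ := by
      rcases not_and_or.1 ha1 with h1 | h1 <;> rw [not_not] at h1
      · refine Or.inl (iso_ext fun u => Subtype.ext ?_)
        rw [coe_movHom, ← coe_twistHom, ← ha, h1]; rfl
      · refine Or.inr (iso_ext fun u => Subtype.ext ?_)
        rw [coe_movHom, ← coe_twistHom, ← ha, h1]; rfl
    have hfixt : fixHom g tc = 1 ∨ fixHom g tc = negI _ := by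
      obtain ⟨v₀, hv₀, hspan⟩ := finrank_eq_one_iff'.1 hfix1
      obtain ⟨c, hc⟩ := hspan ((fixHom g tc).1 v₀)
      have hlin : ∀ u, (fixHom g tc).1 u = c • u := fun u => by
        obtain ⟨d, rfl⟩ := hspan u
        rw [map_smul, ← hc, smul_comm]
      have hsq : c * c = 1 := by
        have e : ((fixHom g tc * fixHom g tc : isoGroup (B.restrict (fixP g))) : fixP g ≃ₗ[F] fixP g) v₀ = v₀ := by
          rw [← map_mul, htc2, map_one]; rfl
        rw [coe_mul_apply, hlin, hlin, smul_smul] at e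
        exact smul_left_injective F hv₀ (show (c * c) • v₀ = (1 : F) • v₀ by rw [one_smul]; exact e)
      rcases mul_self_eq_one_iff.1 hsq with rfl | rfl
      · exact Or.inl (iso_ext fun u => by rw [hlin, one_smul]; rfl)
      · exact Or.inr (iso_ext fun u => by rw [hlin, neg_one_smul]; rfl)
    have hsk : IsSquare (LinearMap.det (skewMov g)) := by
      have hne : (-1 : Fˣ) ≠ 1 := fun e => h2 (by
        have e' := congrArg Units.val e
        simp only [Units.val_neg, Units.val_one] at e'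
        linear_combination -e')
      have ht : t = glue g hsp hgs (fixHom g tc, movHom g tc) := (glue_homs g hsp hgs tc).symm
      have hd : detHom B t = 1 := det_of_mem_commutator htmem
      rcases hfixt with hf | hf <;> rcases hmovt with hm | hm <;> rw [hf, hm] at ht
      · exact absurd (ht.trans (map_one _)) ht1
      · exact isSquare_det_skew g hsp hgs hsp hsodd hgs h2 hS hB (ht ▸ htmem)
      · rw [ht, detHom_glue g hsp hgs, detHom_negI, hfix1, map_one, mul_one, pow_one] at hd
        exact absurd hd hne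
      · rw [ht, detHom_glue g hsp hgs, detHom_negI, detHom_negI, hfix1, pow_one, hj, pow_mul, neg_one_sq, one_pow,
          mul_one] at hd
        exact absurd hd hne
    have e : skew g' = skewMov g := LinearMap.ext fun u => Subtype.ext (by
      rw [hg']
      show ((skew (twistHom g (selfC g)) u : movP g) : V) = skew g u
      rw [skew_apply, skew_apply, ← map_inv, Submodule.coe_sub, coe_twistHom, coe_twistHom]
      rfl)
    haveI : Nontrivial (movP g) := Module.nontrivial_of_finrank_pos (R := F) (by omega)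
    refine hasHalfCentral_of_isSquare_det h2 (twist_alt g hS) (twist_nondeg g hsp hsodd hgs hB) g' hs hsp hsodd
      (by rw [← hg'o, pow_orderOf_eq_one]) (fix_twistHom_selfC g hsp hsodd hgs) ?_
    rw [e]; exact hsk
  · obtain ⟨ek⟩ := exists_oddEquiv (B := B.restrict (fixP g)) h2 (fun u v => hS u.1 v.1)
      (nondeg_fix g hsp hgs hB) (n - j) (by omega)
    obtain ⟨z, hz⟩ := transfer hr hs hrs hsp hsodd hx (sympB (n - j) F) (fun hd => by
      rw [Nat.card_congr ek.toEquiv, Classical.Orth.card_isometryGroup_odd h2, mul_assoc] at hd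
      rw [Nat.card_congr (stdSympEquiv (n - j)).toEquiv, Classical.Symp.card_symplecticGroup]
      exact ((Nat.coprime_two_right.2 hrodd).dvd_of_dvd_mul_left hd))
    exact toSymp h2 hA hnd hdim
      (hasOrdModCenter_of_odd (fun w hw => center_symp_sq h2 hA hnd hdim hn1 hw) (hrodd.mul hsodd) hz)

omit [FiniteDimensional F V]

/-- Both groups have elements of order `2p`. -/
theorem symp_two_char {p : ℕ} [Fact p.Prime] [CharP F p] {n : ℕ} (hn : 2 ≤ n) :
    HasOrdModCenter (Matrix.symplecticGroup (Fin n) F) (2 * p) := by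
  have hp : p.Prime := Fact.out
  have hpodd : Odd p := hp.eq_two_or_odd'.resolve_left fun e => h2 (by subst e; exact CharP.cast_eq_zero F 2)
  have hpdvd : p ∣ Nat.card (isoGroup (sympB (n - 1) F)) := by
    rw [Nat.card_congr (stdSympEquiv (n - 1)).toEquiv, Classical.Symp.card_symplecticGroup]
    obtain ⟨f, -, hf⟩ := FiniteField.card F p
    refine Dvd.dvd.mul_right (dvd_pow (hf ▸ dvd_pow_self p f.pos.ne') ?_) _
    have : 1 ≤ n - 1 := by omega
    positivity
  obtain ⟨z, hz⟩ := exists_prime_orderOf_dvd_card' p hpdvd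
  set β := prodForm (sympB 1 F) (sympB (n - 1) F) with hβ
  have hdim : finrank F ((Fin 1 ⊕ Fin 1 → F) × (Fin (n - 1) ⊕ Fin (n - 1) → F)) = 2 * n := by
    rw [Module.finrank_prod, finrank_fintype_fun_eq_card, finrank_fintype_fun_eq_card]
    simp; omega
  have hA : β.IsAlt := prodForm_alt (sympB_alt _) (sympB_alt _)
  have hnd : β.Nondegenerate := prodForm_nondegenerate (sympB_nondeg _) (sympB_nondeg _)
  have hG : orderOf (prodHom (sympB 1 F) (sympB (n - 1) F) (1, z)) = p := by
    rw [orderOf_prodHom, Prod.orderOf, orderOf_one, Nat.lcm_one_left, hz]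
  refine toSymp h2 hA hnd hdim (modCenter_of_half h2 hA hnd hdim (by omega) hp hpodd hG
    ⟨prodHom _ _ (negI _, 1), ?_, Or.inl ?_, ?_, ?_⟩)
  · rw [← map_mul, ← map_mul]; simp
  · rw [← map_mul, Prod.mk_mul_mk, negI_mul_self, one_mul, ← Prod.one_eq_mk, map_one]
  · intro e
    exact negI_ne_one (sympB 1 F) h2 (congrArg Prod.fst (prodHom_injective _ _ (e.trans (map_one _).symm)))
  · intro e
    haveI : Nonempty (Fin (n - 1)) := ⟨⟨0, by omega⟩⟩
    obtain ⟨c, hc⟩ := exists_ne (0 : Fin (n - 1) ⊕ Fin (n - 1) → F)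
    have e1 := congrArg Prod.snd (LinearEquiv.congr_fun (congrArg Subtype.val e) ((0 : Fin 1 ⊕ Fin 1 → F), c))
    simp only [prodHom_apply, negI_apply, Prod.snd_neg, OneMemClass.coe_one, LinearEquiv.coe_one, id_eq] at e1
    rw [eq_neg_iff_add_eq_zero, ← two_smul F] at e1
    exact hc ((smul_eq_zero.1 e1).resolve_left h2)

theorem odd_two_char {p : ℕ} [Fact p.Prime] [CharP F p] {n : ℕ} (hn : 2 ≤ n) :
    HasOrdDerived (Cfsg.isometryGroup F (Cfsg.quadFormOdd n F)) (2 * p) := by
  have hp : p.Prime := Fact.out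
  have hpodd : Odd p := hp.eq_two_or_odd'.resolve_left fun e => h2 (by subst e; exact CharP.cast_eq_zero F 2)
  have hpdvd : p ∣ Nat.card (isoGroup (oddB (n - 1) h2)) := by
    rw [Nat.card_congr (polarEquiv _ h2).toEquiv, Classical.Orth.card_isometryGroup_odd h2]
    obtain ⟨f, -, hf⟩ := FiniteField.card F p
    refine Dvd.dvd.mul_right (Dvd.dvd.mul_left (dvd_pow (hf ▸ dvd_pow_self p f.pos.ne') ?_) _) _
    have : 1 ≤ n - 1 := by omega
    positivity
  obtain ⟨z, hz⟩ := exists_prime_orderOf_dvd_card' p hpdvd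
  set β := prodForm (planeB F) (oddB (n - 1) h2) with hβ
  have hdim : finrank F ((Fin 2 → F) × (Unit ⊕ (Fin (n - 1) ⊕ Fin (n - 1)) → F)) = 2 * n + 1 := by
    rw [Module.finrank_prod, finrank_fintype_fun_eq_card, finrank_fintype_fun_eq_card]
    simp; omega
  have hS : ∀ u v, β u v = β v u := prodForm_symm planeB_symm (CfsgLib.OrthGeo.b_symm _)
  have hnd : β.Nondegenerate := prodForm_nondegenerate planeB_nondeg (CfsgLib.OrthGeo.b_nondeg _)
  refine toOdd h2 hS hnd hdim (hasOrdDerived_two (odd_sq h2 hS hnd hdim (by omega)) hp hpodd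
    (g := prodHom _ _ (1, z)) (a := prodHom _ _ (rot F, 1)) ?_ ?_ ?_)
  · rw [orderOf_prodHom, Prod.orderOf, orderOf_one, Nat.lcm_one_left, hz]
  · rw [← map_mul, ← map_mul]; simp
  · rw [← map_mul, orderOf_prodHom, Prod.mk_mul_mk, one_mul, rot_sq, Prod.orderOf, orderOf_one, Nat.lcm_one_right]
    haveI : Fact (Nat.Prime 2) := ⟨Nat.prime_two⟩
    exact orderOf_eq_prime (by rw [sq, negI_mul_self]) (negI_ne_one _ h2)

omit h2

/-- The two groups have elements of the same orders `r * s` for distinct primes. -/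
theorem ord_iff (h2 : (2 : F) ≠ 0) {n : ℕ} (hn : 2 ≤ n) {r s : ℕ} (hr : r.Prime) (hs : s.Prime) (hrs : r ≠ s) :
    HasOrdDerived (Cfsg.isometryGroup F (Cfsg.quadFormOdd n F)) (r * s) ↔
      HasOrdModCenter (Matrix.symplecticGroup (Fin n) F) (r * s) := by
  obtain ⟨p, hp⟩ := CharP.exists F
  haveI : Fact p.Prime := ⟨CharP.char_is_prime F p⟩
  have hcast : ∀ {t : ℕ}, t.Prime → ((t : F) = 0 ↔ t = p) := fun {t} ht => by
    rw [CharP.cast_eq_zero_iff F p, Nat.prime_dvd_prime_iff_eq Fact.out ht, eq_comm]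
  have main : ∀ {r s : ℕ}, r.Prime → s.Prime → r ≠ s → Odd s → (s : F) ≠ 0 →
      (HasOrdDerived (Cfsg.isometryGroup F (Cfsg.quadFormOdd n F)) (r * s) ↔
        HasOrdModCenter (Matrix.symplecticGroup (Fin n) F) (r * s)) := by
    intro r s hr hs hrs hsodd hsp
    constructor
    · intro h
      refine oddToSymp h2 (B := oddB n h2) (CfsgLib.OrthGeo.b_symm _) (CfsgLib.OrthGeo.b_nondeg _)
        (by rw [finrank_fintype_fun_eq_card]; simp; omega) (by omega) hr hs hrs hsp hsodd ?_
      exact h.map (polarEquiv _ h2).symm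
    · intro h
      refine sympToOdd h2 (B := sympB n F) (sympB_alt n) (sympB_nondeg n)
        (by rw [finrank_fintype_fun_eq_card]; simp; omega) (by omega) hr hs hrs hsp hsodd ?_
      exact h.map (stdSympEquiv n).symm
  have two : ∀ {s : ℕ}, s.Prime → 2 ≠ s →
      (HasOrdDerived (Cfsg.isometryGroup F (Cfsg.quadFormOdd n F)) (2 * s) ↔
        HasOrdModCenter (Matrix.symplecticGroup (Fin n) F) (2 * s)) := by
    intro s hs h2s
    by_cases hsp : (s : F) = 0
    · obtain rfl := (hcast hs).1 hsp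
      exact iff_of_true (odd_two_char h2 hn) (symp_two_char h2 hn)
    · exact main Nat.prime_two hs h2s (hs.eq_two_or_odd'.resolve_left h2s.symm) hsp
  rcases hr.eq_two_or_odd' with rfl | hrodd
  · exact two hs hrs
  rcases hs.eq_two_or_odd' with rfl | hsodd
  · rw [mul_comm]
    exact two hr hrs.symm
  by_cases hsp : (s : F) = 0
  · have hrp : (r : F) ≠ 0 := fun e => hrs (((hcast hr).1 e).trans ((hcast hs).1 hsp).symm)
    rw [mul_comm]
    exact main hs hr hrs.symm hrodd hrp
  · exact main hr hs hrs hsodd hsp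

/-- The prime graphs coincide. -/
theorem primeGraph_iff (h2 : (2 : F) ≠ 0) {n : ℕ} (hn : 2 ≤ n) {r s : ℕ} (hr : r.Prime) (hs : s.Prime)
    (hrs : r ≠ s) :
    (r * s ∈ Set.range (orderOf : Cfsg.POmega F (Cfsg.quadFormOdd n F) → ℕ)) ↔
      (r * s ∈ Set.range (orderOf : Cfsg.PSp n F → ℕ)) := by
  have hQ := CfsgLib.OrthGeo.isNondegenerateQuadraticForm_quadFormOdd (F := F) n h2
  have hn5 : 5 ≤ Fintype.card (Unit ⊕ (Fin n ⊕ Fin n)) := by simp; omega
  have hno : ¬ ∃ g : ↥(Cfsg.isometryGroup F (Cfsg.quadFormOdd n F)), g ∈ Cfsg.Omega F (Cfsg.quadFormOdd n F) ∧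
      ((g : GL (Unit ⊕ (Fin n ⊕ Fin n)) F) : Matrix (Unit ⊕ (Fin n ⊕ Fin n)) (Unit ⊕ (Fin n ⊕ Fin n)) F) = -1 := by
    rintro ⟨g, hg, hv⟩
    have hd := Classical.Orth.det_eq_neg_one_pow hQ (Classical.Orth.not_exc_of_two_ne_zero h2) g.2
    rw [hv, ((Classical.Orth.mem_omega_iff hQ (Classical.Orth.not_exc_of_two_ne_zero h2) g).1 hg).1.neg_one_pow,
      Matrix.det_neg, Matrix.det_one, mul_one, Odd.neg_one_pow ⟨n, by simp; omega⟩] at hd
    exact h2 (by linear_combination -hd)
  have hc := Subgroup.card_eq_one.1 ((Classical.Orth.card_center_omega hQ hn5).1 (Or.inl hno))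
  have hinj : Function.Injective (QuotientGroup.mk' (Subgroup.center (Cfsg.Omega F (Cfsg.quadFormOdd n F)))) := by
    rw [← MonoidHom.ker_eq_bot_iff, QuotientGroup.ker_mk']
    exact hc
  refine Iff.trans ?_ ((ord_iff h2 hn hr hs hrs).trans ?_)
  · constructor
    · rintro ⟨y, hy⟩
      obtain ⟨x, rfl⟩ := QuotientGroup.mk'_surjective _ y
      refine ⟨x.1, x.2, ?_⟩
      rw [Subgroup.orderOf_coe, ← hy]
      exact (orderOf_injective _ hinj x).symm
    · rintro ⟨x, hx, hxo⟩
      refine ⟨QuotientGroup.mk' _ ⟨x, hx⟩, ?_⟩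
      rw [orderOf_injective _ hinj, ← Subgroup.orderOf_coe]
      exact hxo
  · constructor
    · rintro ⟨x, hx⟩
      exact ⟨(x : Cfsg.PSp n F), hx⟩
    · rintro ⟨y, hy⟩
      obtain ⟨x, rfl⟩ := QuotientGroup.mk_surjective y
      exact ⟨x, hy⟩

end CfsgLib.PrimeGraphSpO
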