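import Cfsg.Agent.PrimeGraphSpO.Twist
import Cfsg.Agent.Classical.Orth.Diag

/-!
An element of the derived group of an odd-dimensional orthogonal group that acts as `±1` on the fixed space and on the
moved space of `g`: it is `(1, 1)` or `(1, -1)`, and in the second case the determinant of `g - g⁻¹` is a square.
-/

set_option autoImplicit false
set_option linter.unusedSectionVars false

namespace CfsgLib.PrimeGraphSpO

open Module
open scoped Matrix MatrixGroups

universe u v

variable {F : Type u} [Field F] [Fintype F] {V : Type v} [AddCommGroup V] [Module F V] [FiniteDimensional F V]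
variable {B : LinearMap.BilinForm F V}

/-- The determinant of an isometry. -/
noncomputable def detHom (B : LinearMap.BilinForm F V) : isoGroup B →* Fˣ :=
  LinearEquiv.det.comp (isoGroup B).subtype

lemma det_of_mem_commutator {t : isoGroup B} (ht : t ∈ commutator (isoGroup B)) : detHom B t = 1 :=
  Abelianization.commutator_subset_ker (detHom B) ht

variable (g : isoGroup B) {k : ℕ} (hk : (k : F) ≠ 0) (hgk : g ^ k = 1)
include hk hgk

lemma detHom_glue (p : isoGroup (B.restrict (fixP g)) × isoGroup (B.restrict (movP g))) :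
    detHom B (glue g hk hgk p) = detHom _ p.1 * detHom _ p.2 := by
  refine Units.ext ?_
  rw [Units.val_mul]
  simp only [detHom, MonoidHom.coe_comp, Function.comp_apply, Subgroup.coe_subtype, LinearEquiv.coe_det]
  show LinearMap.det ((glue g hk hgk p).1 : V →ₗ[F] V) = LinearMap.det (p.1.1 : fixP g →ₗ[F] fixP g) *
    LinearMap.det (p.2.1 : movP g →ₗ[F] movP g)
  rw [← LinearMap.det_prodMap, ← LinearMap.det_conj _ (Submodule.prodEquivOfIsCompl _ _ (isCompl g hk hgk))]
  congr 1

omit hk hgk

lemma detHom_negI : detHom B (negI B) = (-1) ^ finrank F V := by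
  refine Units.ext ?_
  simp only [detHom, MonoidHom.coe_comp, Function.comp_apply, Subgroup.coe_subtype, LinearEquiv.coe_det]
  show LinearMap.det ((negI B).1 : V →ₗ[F] V) = _
  rw [show ((negI B : isoGroup B).1 : V →ₗ[F] V) = (-1 : F) • LinearMap.id from LinearMap.ext fun v => by simp,
    LinearMap.det_smul, LinearMap.det_id, mul_one]
  simp

include hk hgk

/-- The discriminant of the moved space. -/
theorem isSquare_det_mov (h2 : (2 : F) ≠ 0) (hS : ∀ u v, B u v = B v u) (hB : B.Nondegenerate)
    (ht : glue g hk hgk (1, negI _) ∈ commutator (isoGroup B)) :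
    ∃ b : Basis (Fin (finrank F (movP g))) F (movP g),
      IsSquare (LinearMap.BilinForm.toMatrix b (B.restrict (movP g))).det := by
  classical
  letI := invertibleOfNonzero h2
  set W := movP g
  set β := B.restrict W with hβ
  have hsym : β.IsSymm := LinearMap.BilinForm.isSymm_def.2 fun u v => hS u v
  obtain ⟨b, hb⟩ := LinearMap.BilinForm.exists_orthogonal_basis (LinearMap.BilinForm.isSymm_iff.1 hsym)
  refine ⟨b, ?_⟩
  have hbz : ∀ i j, i ≠ j → β (b i) (b j) = 0 := fun i j hij => hb hij
  have hexp : ∀ (w : W) i, β (b i) w = b.repr w i * β (b i) (b i) := fun w i => by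
    conv_lhs => rw [← b.sum_repr w, map_sum]
    rw [Finset.sum_eq_single i (fun j _ hji => by rw [map_smul, hbz i j hji.symm, smul_zero]) (by simp),
      map_smul, smul_eq_mul]
  have hbQ : ∀ i, β (b i) (b i) ≠ 0 := fun i h0 => by
    refine b.ne_zero i ((nondeg_mov g hk hgk hB).1 _ fun z => ?_)
    rw [hexp, h0, mul_zero]
  have hG : LinearMap.BilinForm.toMatrix b β = Matrix.diagonal fun i => β (b i) (b i) := by
    ext i j
    rw [LinearMap.BilinForm.toMatrix_apply]
    by_cases hij : i = j
    · subst hij; rw [Matrix.diagonal_apply_eq]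
    · rw [Matrix.diagonal_apply_ne _ hij, hbz i j hij]
  rw [hG, Matrix.det_diagonal]
  -- coordinates on `V`
  set T : (Fin (finrank F V) → F) ≃ₗ[F] V := (finBasis F V).equivFun.symm
  let B₁ : LinearMap.BilinForm F (Fin (finrank F V) → F) := B.compl₁₂ (T : _ →ₗ[F] V) (T : _ →ₗ[F] V)
  have hpol : ∀ u v, QuadraticMap.polar (⇑B₁.toQuadraticMap) u v = 2 * B (T u) (T v) := fun u v => by
    rw [LinearMap.BilinMap.polar_toQuadraticMap]
    simp only [B₁, LinearMap.compl₁₂_apply, LinearEquiv.coe_coe]
    rw [hS (T v)]; ring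
  have hQ := CfsgLib.Classical.Orth.isNondegQF_of_quadraticForm B₁.toQuadraticMap ⟨fun x hx => T.map_eq_zero_iff.1
      (hB.1 _ fun y => ?_), fun y hy => T.map_eq_zero_iff.1 (hB.2 _ fun x => ?_)⟩
  rotate_left
  · have h := hx (T.symm y)
    rw [QuadraticMap.polarBilin_apply_apply, hpol, T.apply_symm_apply] at h
    exact (mul_eq_zero.1 h).resolve_left h2
  · have h := hy (T.symm x)
    rw [QuadraticMap.polarBilin_apply_apply, hpol, T.apply_symm_apply] at h
    exact (mul_eq_zero.1 h).resolve_left h2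
  let ψ : isoGroup B ≃* Cfsg.isometryGroup F (⇑B₁.toQuadraticMap) :=
    (transport (B' := CfsgLib.OrthGeo.bform hQ) T.symm (d := 2) h2 fun u v => by
      rw [CfsgLib.OrthGeo.bform_apply, hpol, T.apply_symm_apply, T.apply_symm_apply]).trans (polarEquiv hQ h2)
  set x := ψ (glue g hk hgk (1, negI _)) with hx
  have hxmem : x ∈ Cfsg.Omega F (⇑B₁.toQuadraticMap) := by
    have h' := Subgroup.mem_map_of_mem ψ.toMonoidHom ht
    rw [commutator_def, Subgroup.map_commutator] at h'
    show x ∈ commutator _
    rw [commutator_def]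
    exact Subgroup.commutator_mono le_top le_top h'
  set vs := List.ofFn (fun i => T.symm ((b i : W) : V)) with hvs
  have hQb : ∀ i, B₁.toQuadraticMap (T.symm ((b i : W) : V)) = β (b i) (b i) := fun i => by
    simp [B₁, LinearMap.BilinMap.toQuadraticMap_apply, hβ]
  have hvs0 : ∀ w ∈ vs, B₁.toQuadraticMap w ≠ 0 := by
    simp only [hvs, List.forall_mem_ofFn_iff]
    exact fun i => by rw [hQb]; exact hbQ i
  have hM : ((x : GL (Fin (finrank F V)) F) : Matrix (Fin (finrank F V)) (Fin (finrank F V)) F) =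
      (vs.map fun w => Cfsg.reflectionMatrix (⇑B₁.toQuadraticMap) w).prod := by
    refine Matrix.ext_of_mulVec_single fun j => ?_
    generalize (Pi.single j 1 : Fin (finrank F V) → F) = z
    rw [CfsgLib.Classical.Orth.prod_reflection_orthogonal hQ vs hvs0 (List.pairwise_ofFn.2 fun i l hil => by
      rw [CfsgLib.OrthGeo.bform_apply, hpol, T.apply_symm_apply, T.apply_symm_apply]
      exact mul_eq_zero_of_right _ (hbz i l hil.ne)) z, hvs, List.map_ofFn, List.sum_ofFn]
    refine T.injective ?_
    show T (((x : GL (Fin (finrank F V)) F) : Matrix _ _ F) *ᵥ z) = _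
    rw [show ((x : GL (Fin (finrank F V)) F) : Matrix _ _ F) *ᵥ z =
      T.symm (((glue g hk hgk (1, negI _) : isoGroup B) : V ≃ₗ[F] V) (T z)) from
      (glOf_mulVec _ z).trans (by simp), T.apply_symm_apply, map_sub, map_sum]
    obtain ⟨a, w, ha, hw, hTz⟩ := Submodule.codisjoint_iff_exists_add_eq.1 (isCompl g hk hgk).2 (T z)
    rw [← hTz, glue_apply g hk hgk _ ⟨a, ha⟩ ⟨w, hw⟩]
    have hsum : ∀ i, T (((B₁.toQuadraticMap (T.symm ((b i : W) : V)))⁻¹ *
        CfsgLib.OrthGeo.bform hQ (T.symm ((b i : W) : V)) z) • T.symm ((b i : W) : V)) =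
        (2 : F) • (b.repr ⟨w, hw⟩ i • ((b i : W) : V)) := fun i => by
      rw [map_smul, T.apply_symm_apply, hQb, CfsgLib.OrthGeo.bform_apply, hpol, T.apply_symm_apply, ← hTz, map_add,
        orth_right g ha (b i).2, zero_add, show B ((b i : W) : V) w = β (b i) ⟨w, hw⟩ from rfl, hexp ⟨w, hw⟩ i, smul_smul]
      congr 1
      field_simp [hbQ i]
    simp only [Function.comp_apply, hsum, ← Finset.smul_sum]
    have e := congrArg Subtype.val (b.sum_repr ⟨w, hw⟩)
    rw [Submodule.coe_sum] at e
    simp only [Submodule.coe_smul] at e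
    rw [e]
    simp only [OneMemClass.coe_one, LinearEquiv.coe_one, id_eq, negI_apply, Submodule.coe_neg, two_smul]
    abel
  obtain ⟨-, hsq⟩ := (CfsgLib.Classical.Orth.mem_omega_iff_of_prod hQ
    (CfsgLib.Classical.Orth.not_exc_of_two_ne_zero h2) x vs hvs0 hM).1 hxmem
  rw [hvs, List.map_ofFn, List.prod_ofFn] at hsq
  simpa [Function.comp_def, hQb] using hsq

/-- The determinant of `g - g⁻¹` on the moved space. -/
theorem isSquare_det_skew {s : ℕ} (hs : (s : F) ≠ 0) (hsodd : Odd s) (hg : g ^ s = 1) (h2 : (2 : F) ≠ 0)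
    (hS : ∀ u v, B u v = B v u) (hB : B.Nondegenerate)
    (ht : glue g hk hgk (1, negI _) ∈ commutator (isoGroup B)) : IsSquare (LinearMap.det (skewMov g)) := by
  classical
  obtain ⟨b, hb⟩ := isSquare_det_mov g hk hgk h2 hS hB ht
  have h := isSquare_det_alt (twist_alt g hS) (twist_nondeg g hs hsodd hg hB) b
  rw [twist, LinearMap.BilinForm.toMatrix_compLeft, Matrix.det_mul, Matrix.det_transpose, LinearMap.det_toMatrix] at h
  have h0 : (LinearMap.BilinForm.toMatrix b (B.restrict (movP g))).det ≠ 0 :=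
    (LinearMap.BilinForm.nondegenerate_iff_det_ne_zero b).1 (nondeg_mov g hs hg hB)
  obtain ⟨c, hc⟩ := h
  obtain ⟨d, hd⟩ := hb
  rw [hd] at hc
  have hd0 : d ≠ 0 := fun e => h0 (by rw [hd, e, mul_zero])
  exact ⟨c / d, by field_simp; linear_combination hc⟩

end CfsgLib.PrimeGraphSpO
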