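import Cfsg.Agent.PrimeGraphSpO.Basic
import Mathlib.RingTheory.Norm.Transitivity
import Mathlib.FieldTheory.Finite.GaloisField

/-!
An element `g` of odd order without fixed vectors in a symplectic group over a finite field of odd order: if the
determinant of `g - g⁻¹` is a square, some non-central element of square `±1` centralises `g`.
-/

set_option autoImplicit false
set_option linter.unusedSectionVars false

namespace CfsgLib.PrimeGraphSpO

open Module

universe u v

variable {F : Type u} [Field F] [Fintype F] {V : Type v} [AddCommGroup V] [Module F V] [FiniteDimensional F V]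
variable {B : LinearMap.BilinForm F V}

/-- An element of square `±1` other than `±1` in the centraliser of `g`. -/
def HasHalfCentral (g : isoGroup B) : Prop :=
  ∃ y : isoGroup B, y * g = g * y ∧ (y * y = 1 ∨ y * y = negI B) ∧ y ≠ 1 ∧ y ≠ negI B

/-- `g - g⁻¹`. -/
def skew (g : isoGroup B) : Module.End F V :=
  ((g : V ≃ₗ[F] V) : V →ₗ[F] V) - (((g⁻¹ : isoGroup B) : V ≃ₗ[F] V) : V →ₗ[F] V)

lemma skew_apply (g : isoGroup B) (v : V) :
    skew g v = (g : V ≃ₗ[F] V) v - ((g⁻¹ : isoGroup B) : V ≃ₗ[F] V) v := rfl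

lemma form_inv_right (g : isoGroup B) (u v : V) :
    B u (((g⁻¹ : isoGroup B) : V ≃ₗ[F] V) v) = B ((g : V ≃ₗ[F] V) u) v := by
  conv_lhs => rw [← g.2 u (((g⁻¹ : isoGroup B) : V ≃ₗ[F] V) v), apply_inv_self]

lemma skew_adjoint (g : isoGroup B) (u v : V) : B (skew g u) v = - B u (skew g v) := by
  rw [skew_apply, skew_apply, map_sub, LinearMap.sub_apply, map_sub, form_inv_left, form_inv_right]
  ring

/-- An endomorphism of square `±1` preserving the form, as an isometry. -/
def ofSq (y : Module.End F V) {ε : F} (hε : ε * ε = 1) (hy : y * y = algebraMap F (Module.End F V) ε)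
    (hB : ∀ u v, B (y u) (y v) = B u v) : isoGroup B :=
  ⟨LinearEquiv.ofLinear y (ε • y)
    (LinearMap.ext fun v => by
      have h := LinearMap.congr_fun hy v
      simp only [Module.End.mul_apply, Module.algebraMap_end_apply] at h
      simp [h, smul_smul, hε])
    (LinearMap.ext fun v => by
      have h := LinearMap.congr_fun hy v
      simp only [Module.End.mul_apply, Module.algebraMap_end_apply] at h
      simp [h, smul_smul, hε]), hB⟩

@[simp] lemma ofSq_apply (y : Module.End F V) {ε : F} (hε : ε * ε = 1)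
    (hy : y * y = algebraMap F (Module.End F V) ε) (hB : ∀ u v, B (y u) (y v) = B u v) (v : V) :
    ((ofSq y hε hy hB : isoGroup B) : V ≃ₗ[F] V) v = y v := rfl

/-- The criterion for an endomorphism to give a half-central element. -/
lemma hasHalfCentral_of_end {g : isoGroup B} (y : Module.End F V) (ε : F) (hε : ε = 1 ∨ ε = -1)
    (hy : y * y = algebraMap F (Module.End F V) ε) (hB : ∀ u v, B (y u) (y v) = B u v)
    (hcomm : ∀ v, y ((g : V ≃ₗ[F] V) v) = (g : V ≃ₗ[F] V) (y v))
    (h1 : ∃ v, y v ≠ v) (h2 : ∃ v, y v ≠ -v) : HasHalfCentral g := by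
  have hεε : ε * ε = 1 := by rcases hε with rfl | rfl <;> ring
  refine ⟨ofSq y hεε hy hB, iso_ext fun v => by simp [hcomm], ?_, fun e => ?_, fun e => ?_⟩
  · rcases hε with rfl | rfl
    · exact Or.inl (iso_ext fun v => by
        have h := LinearMap.congr_fun hy v
        simpa using h)
    · exact Or.inr (iso_ext fun v => by
        have h := LinearMap.congr_fun hy v
        simpa using h)
  · obtain ⟨v, hv⟩ := h1
    exact hv (by simpa using congrArg (fun z : isoGroup B => (z : V ≃ₗ[F] V) v) e)
  · obtain ⟨v, hv⟩ := h2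
    exact hv (by simpa using congrArg (fun z : isoGroup B => (z : V ≃ₗ[F] V) v) e)

variable (h2 : (2 : F) ≠ 0) (hA : B.IsAlt) (hB : B.Nondegenerate) (g : isoGroup B)
variable {s : ℕ} (hs : s.Prime) (hsp : (s : F) ≠ 0) (hsodd : Odd s) (hg : g ^ s = 1) (hfix : fixP g = ⊥)
include h2 hA hB hs hsp hsodd hg hfix

lemma skew_injective : Function.Injective (skew g) := by
  rw [← LinearMap.ker_eq_bot, Submodule.eq_bot_iff]
  intro v hv
  rw [LinearMap.mem_ker, skew_apply, sub_eq_zero] at hv
  have h : ((g * g : isoGroup B) : V ≃ₗ[F] V) v = v := by rw [coe_mul_apply, hv, apply_inv_self]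
  obtain ⟨k, rfl⟩ := hsodd
  have hk : ∀ i : ℕ, ((g * g) ^ i : isoGroup B).1 v = v := fun i => by
    induction i with
    | zero => rfl
    | succ i ih => rw [pow_succ, coe_mul_apply, h, ih]
  have h' : (g : V ≃ₗ[F] V) v = v := by
    have e : g = (g * g) ^ (k + 1) := by
      rw [← sq, ← pow_mul, show 2 * (k + 1) = (2 * k + 1) + 1 by ring, pow_succ, hg, one_mul]
    conv_lhs => rw [e]
    exact hk (k + 1)
  have : v ∈ fixP g := (mem_fixP g).2 h'
  rwa [hfix, Submodule.mem_bot] at this

theorem hasHalfCentral_of_isSquare_det [Nontrivial V] (hdet : IsSquare (LinearMap.det (skew g))) :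
    HasHalfCentral g := by
  classical
  set G : Module.End F V := ((g : V ≃ₗ[F] V) : V →ₗ[F] V) with hG
  set G' : Module.End F V := (((g⁻¹ : isoGroup B) : V ≃ₗ[F] V) : V →ₗ[F] V) with hG'
  have hGG' : G * G' = 1 := LinearMap.ext fun v => apply_inv_self g v
  have hG'G : G' * G = 1 := LinearMap.ext fun v => inv_apply_self g v
  set h := G + G' with hh
  set A := G - G' with hAdef
  have hAe : A = skew g := rfl
  set R := Algebra.adjoin F ({h} : Set (Module.End F V)) with hR
  have hhR : h ∈ R := Algebra.subset_adjoin rfl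
  have hcommG : ∀ x ∈ R, x * G = G * x := by
    intro x hx
    induction hx using Algebra.adjoin_induction with
    | mem x hx =>
      obtain rfl : x = h := hx
      rw [hh, add_mul, mul_add, hGG', hG'G]
    | algebraMap c => exact Algebra.commutes c G
    | add x y _ _ h1 h2 => rw [add_mul, mul_add, h1, h2]
    | mul x y _ _ h1 h2 => rw [mul_assoc, h2, ← mul_assoc, h1, mul_assoc]
  have hcommG' : ∀ x ∈ R, x * G' = G' * x := fun x hx => by
    calc x * G' = G' * G * (x * G') := by rw [hG'G, one_mul]
      _ = G' * (x * G) * G' := by rw [hcommG x hx]; simp only [mul_assoc]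
      _ = G' * x := by simp only [mul_assoc, hGG', mul_one]
  have hcommR : ∀ x ∈ R, ∀ y ∈ R, x * y = y * x := by
    intro x hx y hy
    induction hy using Algebra.adjoin_induction with
    | mem y hy =>
      obtain rfl : y = h := hy
      rw [hh, mul_add, add_mul, hcommG x hx, hcommG' x hx]
    | algebraMap c => exact (Algebra.commutes c x).symm
    | add y z _ _ h1 h2 => rw [add_mul, mul_add, h1, h2]
    | mul y z _ _ h1 h2 => rw [← mul_assoc, h1, mul_assoc, h2, mul_assoc]
  have hself : ∀ x ∈ R, ∀ u v, B (x u) v = B u (x v) := by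
    intro x hx
    induction hx using Algebra.adjoin_induction with
    | mem x hx =>
      obtain rfl : x = h := hx
      intro u v
      simp only [hh, LinearMap.add_apply, map_add, hG, hG', LinearEquiv.coe_coe, form_inv_left, form_inv_right]
      ring
    | algebraMap c => intro u v; simp [Module.algebraMap_end_apply]
    | add x y _ _ h1 h2 => intro u v; simp [h1, h2]
    | mul x y hx hy h1 h2 =>
      intro u v
      have e := LinearMap.congr_fun (hcommR x hx y hy) v
      rw [Module.End.mul_apply, h1, h2]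
      exact congrArg (B u) e.symm
  -- every element of `R` is fixed by a power of Frobenius
  obtain ⟨p, hp⟩ := CharP.exists F
  haveI : Fact p.Prime := ⟨CharP.char_is_prime F p⟩
  haveI : CharP (Module.End F V) p :=
    charP_of_injective_algebraMap (FaithfulSMul.algebraMap_injective F (Module.End F V)) p
  obtain ⟨f, -, hqf⟩ := FiniteField.card F p
  set q := Fintype.card F with hq
  set Q := q ^ (s - 1) with hQ
  have hQp : Q = p ^ ((f : ℕ) * (s - 1)) := by rw [hQ, hqf, pow_mul]
  have hq2 : 2 ≤ q := Fintype.one_lt_card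
  have hs3 : 1 ≤ s - 1 := by have := hs.two_le; omega
  have hQ2 : 2 ≤ Q := hq2.trans (Nat.le_self_pow (by omega) q)
  have hQ1 : s ∣ Q - 1 := by
    have hcop : q.Coprime s := by
      refine Nat.Coprime.symm ((Nat.Prime.coprime_iff_not_dvd hs).2 fun hd => hsp ?_)
      obtain ⟨c, hc⟩ := hd
      rw [hqf] at hc
      have hps : s = p := (Nat.prime_dvd_prime_iff_eq hs Fact.out).1
        (hs.dvd_of_dvd_pow (show s ∣ p ^ (f : ℕ) from ⟨c, hc⟩))
      rw [hps]
      exact CharP.cast_eq_zero F p
    have h0 := Nat.ModEq.pow_totient hcop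
    rw [Nat.totient_prime hs] at h0
    exact (Nat.modEq_iff_dvd' (by omega)).1 h0.symm
  have hGQ : ∀ x : Module.End F V, x ^ s = 1 → x ^ Q = x := fun x hx => by
    obtain ⟨c, hc⟩ := hQ1
    rw [show Q = s * c + 1 by omega, pow_succ, pow_mul, hx, one_pow, one_mul]
  have hGs : ∀ (x : isoGroup B), x ^ s = 1 → (((x : V ≃ₗ[F] V) : V →ₗ[F] V) : Module.End F V) ^ s = 1 := fun x hx => by
    have e : ∀ i : ℕ, (((x : V ≃ₗ[F] V) : V →ₗ[F] V) : Module.End F V) ^ i =
        ((((x ^ i : isoGroup B)) : V ≃ₗ[F] V) : V →ₗ[F] V) := fun i => by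
      induction i with
      | zero => rfl
      | succ i ih => rw [pow_succ, ih, pow_succ]; rfl
    rw [e, hx]; rfl
  have hfrob : ∀ x ∈ R, x ^ Q = x := by
    intro x hx
    induction hx using Algebra.adjoin_induction with
    | mem x hx =>
      obtain rfl : x = h := hx
      rw [hh, hQp, add_pow_char_pow_of_commute p _ (show Commute G G' from hGG'.trans hG'G.symm), ← hQp,
        hGQ _ (hGs g hg), hGQ _ (hGs g⁻¹ (by rw [inv_pow, hg, inv_one]))]
    | algebraMap c => rw [← map_pow, hQ, FiniteField.pow_card_pow]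
    | add x y hx hy h1 h2 => rw [hQp, add_pow_char_pow_of_commute p _ (hcommR x hx y hy), ← hQp, h1, h2]
    | mul x y hx hy h1 h2 => rw [(show Commute x y from hcommR x hx y hy).mul_pow, h1, h2]
  -- idempotents
  by_cases hid : ∃ e ∈ R, e * e = e ∧ e ≠ 0 ∧ e ≠ 1
  · obtain ⟨e, heR, hee, he0, he1⟩ := hid
    set y := e + e - 1 with hy
    have hyR : y ∈ R := sub_mem (add_mem heR heR) (one_mem R)
    have hy2 : y * y = 1 := by
      simp only [hy, sub_mul, mul_sub, add_mul, mul_add, hee, one_mul, mul_one]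
      abel
    refine hasHalfCentral_of_end y 1 (Or.inl rfl) (by rw [hy2, map_one]) (fun u v => ?_) (fun v => ?_) ?_ ?_
    · rw [hself y hyR, ← Module.End.mul_apply, hy2]; rfl
    · exact LinearMap.congr_fun (hcommG y hyR) v
    · by_contra hc
      push Not at hc
      refine he1 (LinearMap.ext fun v => ?_)
      have := hc v
      simp only [hy, LinearMap.sub_apply, LinearMap.add_apply, Module.End.one_apply, sub_eq_iff_eq_add] at this
      show e v = v
      rw [← two_smul F, ← two_smul F v] at this
      exact smul_right_injective V h2 this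
    · by_contra hc
      push Not at hc
      refine he0 (LinearMap.ext fun v => ?_)
      have := hc v
      simp only [hy, LinearMap.sub_apply, LinearMap.add_apply, Module.End.one_apply] at this
      rw [sub_eq_neg_self, ← two_smul F] at this
      exact (smul_eq_zero.1 this).resolve_left h2
  push Not at hid
  -- `R` is a field
  have hinv : ∀ x ∈ R, x ≠ 0 → ∃ y ∈ R, x * y = 1 := by
    intro x hx hx0
    have hee : x ^ (Q - 1) * x ^ (Q - 1) = x ^ (Q - 1) := by
      rw [← pow_add, show Q - 1 + (Q - 1) = (Q - 2) + Q by omega, pow_add, hfrob x hx, ← pow_succ,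
        show Q - 2 + 1 = Q - 1 by omega]
    have hne : x ^ (Q - 1) ≠ 0 := fun e => hx0 (by
      rw [← hfrob x hx, show Q = Q - 1 + 1 by omega, pow_succ, e, zero_mul])
    have h1 := hid _ (pow_mem hx _) hee hne
    refine ⟨x ^ (Q - 2), pow_mem hx _, ?_⟩
    rw [← pow_succ', show Q - 2 + 1 = Q - 1 by omega, h1]
  letI : CommRing R := { (inferInstance : Ring R) with mul_comm := fun x y => Subtype.ext (hcommR x.1 x.2 y.1 y.2) }
  have hfield : IsField R := ⟨exists_pair_ne R, mul_comm, fun {x} hx => by
    obtain ⟨y, hy, hxy⟩ := hinv x.1 x.2 fun e => hx (Subtype.ext e)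
    exact ⟨⟨y, hy⟩, Subtype.ext hxy⟩⟩
  letI : Field R := hfield.toField
  have hsmul : ∀ (k : R) (w : V), k • w = k.1 w := fun _ _ => rfl
  -- the vector `v`
  have hskew : ∀ u w, B (A u) w = - B u (A w) := skew_adjoint g
  have hgh : ∀ w, h w + A w = (2 : F) • G w := fun w => by
    rw [hh, hAdef, LinearMap.add_apply, LinearMap.sub_apply, two_smul]; abel
  have hgh' : ∀ w, h w - A w = (2 : F) • G' w := fun w => by
    rw [hh, hAdef, LinearMap.add_apply, LinearMap.sub_apply, two_smul]; abel
  obtain ⟨v, hv⟩ : ∃ v, B v (A v) ≠ 0 := by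
    by_contra hc
    push Not at hc
    obtain ⟨w, hw⟩ := exists_ne (0 : V)
    refine hw (skew_injective h2 hA hB g hs hsp hsodd hg hfix ?_)
    rw [map_zero]
    refine hB.2 _ fun u => ?_
    have e := hc (u + w)
    rw [map_add, map_add, map_add, LinearMap.add_apply, LinearMap.add_apply, hc u, hc w, zero_add, add_zero] at e
    have e2 : B w (A u) = B u (A w) := by
      rw [← LinearMap.IsAlt.neg hA (A u) w, hskew, neg_neg]
    rw [e2, ← two_mul] at e
    exact (mul_eq_zero.1 e).resolve_left h2
  have hA2 : A * A = h * h - algebraMap F (Module.End F V) 4 := by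
    rw [hAdef, hh]
    have e4 : algebraMap F (Module.End F V) 4 = 1 + 1 + 1 + 1 := by
      rw [show (4 : F) = 1 + 1 + 1 + 1 by norm_num, map_add, map_add, map_add, map_one]
    simp only [add_mul, sub_mul, mul_add, mul_sub, hGG', hG'G, e4]
    abel
  have haR : A * A ∈ R := by rw [hA2]; exact sub_mem (mul_mem hhR hhR) (Subalgebra.algebraMap_mem R 4)
  have hAcomm : ∀ x ∈ R, x * A = A * x := fun x hx => by
    rw [hAdef, mul_sub, sub_mul, hcommG x hx, hcommG' x hx]
  have halt : ∀ x ∈ R, ∀ w, B (x w) w = 0 := fun x hx w => by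
    have e : B (x w) w = - B (x w) w := by
      conv_lhs => rw [hself x hx, ← LinearMap.IsAlt.neg hA (x w) w]
    have : (2 : F) * B (x w) w = 0 := by linear_combination e
    exact (mul_eq_zero.1 this).resolve_left h2
  have hzero : ∀ k l : R, ∀ m : R, B (m.1 v) (k.1 v + l.1 (A v)) = B v ((m * l : R).1 (A v)) ∧
      B (k.1 v + l.1 (A v)) (m.1 (A v)) = B v ((k * m : R).1 (A v)) := by
    intro k l m
    constructor
    · rw [map_add, hself m.1 m.2, hself m.1 m.2, ← Module.End.mul_apply, ← Module.End.mul_apply,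
        ← LinearMap.IsAlt.neg hA ((m.1 * k.1) v) v, halt _ (mul_mem m.2 k.2), neg_zero, zero_add]
      rfl
    · rw [map_add, LinearMap.add_apply, hself k.1 k.2, hself l.1 l.2, ← Module.End.mul_apply,
        ← Module.End.mul_apply (f := l.1), ← LinearMap.IsAlt.neg hA ((l.1 * m.1) (A v)) (A v),
        halt _ (mul_mem l.2 m.2), neg_zero, add_zero]
      rfl
  have hlz : ∀ l : R, (∀ m : R, B v ((m * l : R).1 (A v)) = 0) → l = 0 := fun l hl => by
    by_contra hne
    refine hv ?_
    have := hl l⁻¹
    rwa [inv_mul_cancel₀ hne] at this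
  have hinj : ∀ k l : R, k.1 v + l.1 (A v) = 0 → k = 0 ∧ l = 0 := by
    intro k l e
    refine ⟨hlz k fun m => ?_, hlz l fun m => ?_⟩
    · rw [mul_comm, ← (hzero k l m).2, e, map_zero, LinearMap.zero_apply]
    · rw [← (hzero k l m).1, e, map_zero]
  -- the span
  let L : R × R →ₗ[F] V :=
    { toFun := fun kl => kl.1.1 v + kl.2.1 (A v)
      map_add' := fun a b => by simp [add_add_add_comm]
      map_smul' := fun c a => by simp }
  by_cases htop : LinearMap.range L = ⊤
  swap
  · have hrefl : B.IsRefl := hA.isRefl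
    set U := LinearMap.range L with hU
    have hUnd : (B.restrict U).Nondegenerate := by
      have hboth : ∀ u : U, (∀ w : U, B (u : V) w = 0) → u = 0 := by
        rintro ⟨_, ⟨k, l⟩, rfl⟩ hu
        have e1 : l = 0 := hlz l fun m => by
          rw [← (hzero k l m).1]
          exact hrefl _ _ (hu ⟨m.1 v, (m, 0), by simp [L]⟩)
        have e2 : k = 0 := hlz k fun m => by
          rw [mul_comm, ← (hzero k l m).2]
          exact hu ⟨m.1 (A v), (0, m), by simp [L]⟩
        exact Subtype.ext (by simp [L, e1, e2])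
      exact ⟨fun u hu => hboth u hu, fun u hu => hboth u fun w => hrefl _ _ (hu w)⟩
    have hc : IsCompl U (B.orthogonal U) :=
      (LinearMap.BilinForm.restrict_nondegenerate_iff_isCompl_orthogonal hrefl).1 hUnd
    have hAU : ∀ u ∈ U, A u ∈ U := by
      rintro _ ⟨⟨k, l⟩, rfl⟩
      refine ⟨(l * ⟨A * A, haR⟩, k), ?_⟩
      show (l.1 * (A * A)) v + k.1 (A v) = A (k.1 v + l.1 (A v))
      rw [map_add, ← Module.End.mul_apply (f := A) (g := k.1), ← hAcomm k.1 k.2,
        ← Module.End.mul_apply (f := A) (g := l.1), ← hAcomm l.1 l.2, add_comm]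
      rfl
    have hhU : ∀ u ∈ U, h u ∈ U := by
      rintro _ ⟨⟨k, l⟩, rfl⟩
      refine ⟨(⟨h, hhR⟩ * k, ⟨h, hhR⟩ * l), ?_⟩
      show (h * k.1) v + (h * l.1) (A v) = h (k.1 v + l.1 (A v))
      rw [map_add]; rfl
    have hGU : ∀ u ∈ U, G u ∈ U := fun u hu => by
      have : (2 : F) • G u ∈ U := hgh u ▸ add_mem (hhU u hu) (hAU u hu)
      exact (Submodule.smul_mem_iff _ h2).1 this
    have hG'U : ∀ u ∈ U, G' u ∈ U := fun u hu => by
      have : (2 : F) • G' u ∈ U := hgh' u ▸ sub_mem (hhU u hu) (hAU u hu)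
      exact (Submodule.smul_mem_iff _ h2).1 this
    have hGU' : ∀ w ∈ B.orthogonal U, G w ∈ B.orthogonal U := fun w hw u hu => by
      show B u (G w) = 0
      have : u = G (G' u) := (LinearMap.congr_fun hGG' u).symm
      rw [this]
      exact (g.2 (G' u) w).trans (hw _ (hG'U u hu))
    set π := U.projection (B.orthogonal U) hc with hπ
    set y : Module.End F V := π + π - 1 with hy
    have hyU : ∀ u ∈ U, y u = u := fun u hu => by
      simp [hy, hπ, Submodule.projection_apply_of_mem_left hc hu]
    have hyU' : ∀ w ∈ B.orthogonal U, y w = -w := fun w hw => by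
      simp [hy, hπ, Submodule.projection_apply_of_mem_right hc hw]
    have hdecomp := Submodule.codisjoint_iff_exists_add_eq.1 hc.2
    refine hasHalfCentral_of_end y 1 (Or.inl rfl) (LinearMap.ext fun x => ?_) (fun x z => ?_) (fun x => ?_) ?_ ?_
    · obtain ⟨a, b, ha, hb, rfl⟩ := hdecomp x
      rw [map_one, Module.End.mul_apply, map_add, hyU a ha, hyU' b hb, map_add, hyU a ha, map_neg, hyU' b hb,
        neg_neg]
      rfl
    · obtain ⟨a, b, ha, hb, rfl⟩ := hdecomp x
      obtain ⟨c, d, hc', hd, rfl⟩ := hdecomp z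
      rw [map_add y, map_add y, hyU a ha, hyU' b hb, hyU c hc', hyU' d hd]
      simp only [map_add, map_neg, LinearMap.add_apply, LinearMap.neg_apply, show B a d = 0 from hd a ha,
        show B b c = 0 from hrefl _ _ (hb c hc')]
      ring
    · obtain ⟨a, b, ha, hb, rfl⟩ := hdecomp x
      show y (G (a + b)) = G (y (a + b))
      rw [map_add G, map_add y, hyU _ (hGU a ha), hyU' _ (hGU' b hb), map_add y, hyU a ha, hyU' b hb, map_add G,
        map_neg]
    · obtain ⟨b, hb, hb0⟩ := Submodule.exists_mem_ne_zero_of_ne_bot (p := B.orthogonal U) fun e => htop (by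
        have := hc.2.eq_top
        rwa [e, sup_bot_eq] at this)
      refine ⟨b, fun e => hb0 ?_⟩
      rw [hyU' b hb, neg_eq_iff_add_eq_zero, ← two_smul F] at e
      exact (smul_eq_zero.1 e).resolve_left h2
    · refine ⟨v, fun e => ?_⟩
      rw [hyU v ⟨(1, 0), by simp [L]⟩, eq_neg_iff_add_eq_zero, ← two_smul F] at e
      exact hv (by rw [(smul_eq_zero.1 e).resolve_left h2]; simp)
  -- `V` has the basis `v, A v` over the field `R`
  let b : Basis (Fin 2) R V := Basis.mk (v := ![v, A v])
    (LinearIndependent.pair_iff.2 fun k l e => hinj k l e)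
    (fun x _ => by
      obtain ⟨⟨k, l⟩, rfl⟩ := (htop.ge : ⊤ ≤ LinearMap.range L) (Submodule.mem_top (x := x))
      show k • v + l • A v ∈ _
      exact add_mem (Submodule.smul_mem _ _ (Submodule.subset_span ⟨0, rfl⟩))
        (Submodule.smul_mem _ _ (Submodule.subset_span ⟨1, rfl⟩)))
  let AK : V →ₗ[R] V :=
    { toFun := A
      map_add' := map_add A
      map_smul' := fun k w => (LinearMap.congr_fun (hAcomm k.1 k.2) w).symm }
  haveI : Module.Free R V := Module.Free.of_basis b
  set a : R := ⟨A * A, haR⟩ with ha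
  have hdetK : LinearMap.det AK = -a := by
    rw [← LinearMap.det_toMatrix b, Matrix.det_fin_two]
    have e0 : AK (b 0) = b 1 := by simp only [b, Basis.mk_apply]; rfl
    have e1 : AK (b 1) = a • b 0 := by simp only [b, Basis.mk_apply]; rfl
    simp [LinearMap.toMatrix_apply, e0, e1, Finsupp.single_apply]
  have hdetF : LinearMap.det A = Algebra.norm F (-a) := by
    rw [← hdetK, ← LinearMap.det_restrictScalars]; rfl
  haveI : Finite (Module.End F V) := Module.finite_of_finite F
  rw [← hAe, hdetF] at hdet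
  have ha0 : (-a : R) ≠ 0 := fun e => by
    rw [neg_eq_zero] at e
    obtain ⟨w, hw⟩ := exists_ne (0 : V)
    have e' : A (A w) = A (A 0) := by
      rw [map_zero, map_zero]
      exact LinearMap.congr_fun (congrArg Subtype.val e) w
    have hAi := skew_injective h2 hA hB g hs hsp hsodd hg hfix
    exact hw (hAi (hAi e'))
  haveI : Fintype R := Fintype.ofFinite R
  have hchar : ringChar R ≠ 2 := fun e => h2 ((algebraMap F R).injective (by
    rw [map_zero, map_ofNat]
    have h' := ringChar.Nat.cast_ringChar (R := R)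
    rw [e] at h'
    exact_mod_cast h'))
  have hsq : IsSquare (-a : R) := by
    rw [FiniteField.isSquare_iff hchar ha0]
    have hN0 : Algebra.norm F (-a) ≠ 0 := Algebra.norm_ne_zero_iff.2 ha0
    have hcharF : ringChar F ≠ 2 := fun e => h2 (by
      have h' := ringChar.Nat.cast_ringChar (R := F)
      rw [e] at h'
      exact_mod_cast h')
    have hN1 := (FiniteField.isSquare_iff hcharF hN0).1 hdet
    have e := congrArg (algebraMap F R) hN1
    rw [map_pow, map_one, FiniteField.algebraMap_norm_eq_pow, ← pow_mul, Nat.card_eq_fintype_card,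
      Nat.card_eq_fintype_card] at e
    refine Eq.trans (congrArg _ ?_) e
    obtain ⟨j, hj⟩ : ∃ j, q = 2 * j + 1 := Nat.odd_iff.2 (FiniteField.odd_card_of_char_ne_two hcharF)
    obtain ⟨E, hE⟩ : q - 1 ∣ Fintype.card R - 1 := by
      rw [Module.card_eq_pow_finrank (K := F) (V := R)]
      exact Nat.sub_one_dvd_pow_sub_one q _
    have h1R : 1 ≤ Fintype.card R := Fintype.card_pos
    have hjF : Fintype.card F = 2 * j + 1 := hj
    rw [hE, Nat.mul_div_cancel_left _ (by omega), hjF, show (2 * j + 1) / 2 = j by omega]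
    rw [hj, show 2 * j + 1 - 1 = 2 * j by omega, mul_assoc] at hE
    rw [show Fintype.card R = 2 * (j * E) + 1 by omega, show (2 * (j * E) + 1) / 2 = j * E by omega, mul_comm]
  obtain ⟨c, hc⟩ := hsq
  have hc0 : c ≠ 0 := fun e => ha0 (by rw [hc, e, mul_zero])
  set y : Module.End F V := (c⁻¹ : R).1 * A with hy
  have hy2 : y * y = algebraMap F (Module.End F V) (-1) := by
    rw [hy, mul_assoc, ← mul_assoc A, ← hAcomm _ (c⁻¹ : R).2, mul_assoc, ← mul_assoc,
      map_neg, map_one]
    show (((c⁻¹ * c⁻¹ * a : R)) : Module.End F V) = _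
    rw [show c⁻¹ * c⁻¹ * a = (-1 : R) by field_simp; linear_combination -hc]
    rfl
  have hAG : A * G = G * A := by rw [hAdef, sub_mul, mul_sub, hGG', hG'G]
  refine hasHalfCentral_of_end y (-1) (Or.inr rfl) hy2 (fun x z => ?_) (fun x => ?_) ?_ ?_
  · rw [hy, Module.End.mul_apply, hself _ (c⁻¹ : R).2, hskew]
    have e := LinearMap.congr_fun hy2 z
    rw [hy, Module.End.mul_apply, Module.End.mul_apply, Module.algebraMap_end_apply, neg_smul, one_smul] at e
    have e' := LinearMap.congr_fun (hAcomm _ (c⁻¹ : R).2) ((c⁻¹ : R).1 (A z))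
    rw [Module.End.mul_apply, Module.End.mul_apply] at e'
    simp only [Module.End.mul_apply] at e ⊢
    rw [← e', e, map_neg, neg_neg]
  · have e : y * G = G * y := by
      rw [hy, mul_assoc, hAG, ← mul_assoc, hcommG _ (c⁻¹ : R).2, mul_assoc]
    exact LinearMap.congr_fun e x
  all_goals
    obtain ⟨w, hw⟩ := exists_ne (0 : V)
    refine ⟨w, fun e => hw ?_⟩
    have e' := LinearMap.congr_fun hy2 w
    rw [Module.End.mul_apply, e, Module.algebraMap_end_apply, neg_smul, one_smul] at e'
    simp only [map_neg, e, neg_neg] at e'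
    rw [eq_neg_iff_add_eq_zero, ← two_smul F] at e'
    exact (smul_eq_zero.1 e').resolve_left h2

end CfsgLib.PrimeGraphSpO
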