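import Cfsg.Agent.PrimeGraphSpO.Structure

/-!
The twisted form `(u, v) ↦ B (g u - g⁻¹ u) v` on the moved space of an element `g` of odd order, and the standard
facts about the isometry groups of alternating and of odd-dimensional symmetric forms.
-/

set_option autoImplicit false
set_option linter.unusedSectionVars false

namespace CfsgLib.PrimeGraphSpO

open Module

universe u v

variable {F : Type u} [Field F] [Fintype F] {V : Type v} [AddCommGroup V] [Module F V] [FiniteDimensional F V]
variable {B : LinearMap.BilinForm F V} (g : isoGroup B)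

lemma skew_mem_mov (v : V) : skew g v ∈ movP g := by
  rw [skew_apply]
  have h : (g : V ≃ₗ[F] V) v - ((g⁻¹ : isoGroup B) : V ≃ₗ[F] V) v = ((g : V ≃ₗ[F] V) v - v) +
      ((g : V ≃ₗ[F] V) (((g⁻¹ : isoGroup B) : V ≃ₗ[F] V) v) - ((g⁻¹ : isoGroup B) : V ≃ₗ[F] V) v) := by
    rw [apply_inv_self]; abel
  rw [h]
  exact add_mem (sub_mem_movP g _) (sub_mem_movP g _)

/-- `g - g⁻¹` on the moved space. -/
def skewMov : Module.End F (movP g) :=
  LinearMap.restrict (skew g) fun v _ => skew_mem_mov g v

/-- The twisted form. -/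
def twist : LinearMap.BilinForm F (movP g) := (B.restrict (movP g)).compLeft (skewMov g)

lemma twist_apply (u v : movP g) : twist g u v = B (skew g (u : V)) (v : V) := rfl

lemma skew_comm (x : Subgroup.centralizer ({g} : Set (isoGroup B))) (v : V) :
    skew g ((x.1 : V ≃ₗ[F] V) v) = (x.1 : V ≃ₗ[F] V) (skew g v) := by
  have h : Commute x.1 g⁻¹ :=
    (show Commute x.1 g from Subgroup.mem_centralizer_singleton_iff.1 x.2).inv_right
  rw [skew_apply, skew_apply, map_sub, comm_apply, ← coe_mul_apply g⁻¹ x.1, ← h.eq, coe_mul_apply]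

/-- The centraliser preserves the twisted form. -/
noncomputable def twistHom : Subgroup.centralizer ({g} : Set (isoGroup B)) →* isoGroup (twist g) where
  toFun x := ⟨restrictTo x.1.1 _ (mov_invariant g x), fun u v => by
    rw [twist_apply, twist_apply, coe_restrictTo, coe_restrictTo, skew_comm]
    exact x.1.2 _ _⟩
  map_one' := iso_ext fun v => Subtype.ext (by simp)
  map_mul' x y := iso_ext fun v => Subtype.ext (by simp)

@[simp] lemma coe_twistHom (x : Subgroup.centralizer ({g} : Set (isoGroup B))) (u : movP g) :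
    (((twistHom g x : isoGroup (twist g)) : movP g ≃ₗ[F] movP g) u : V) = (x.1 : V ≃ₗ[F] V) u :=
  coe_restrictTo _ _ _ u

lemma twist_alt (hS : ∀ u v, B u v = B v u) : (twist g).IsAlt := fun u => by
  rw [twist_apply, skew_apply, map_sub, LinearMap.sub_apply, form_inv_left, hS ((u : V)), sub_self]

lemma twist_symm (hA : B.IsAlt) (u v : movP g) : twist g u v = twist g v u := by
  rw [twist_apply, twist_apply, skew_adjoint, LinearMap.IsAlt.neg hA (u : V) (skew g (v : V))]

variable {s : ℕ} (hsp : (s : F) ≠ 0) (hsodd : Odd s) (hg : g ^ s = 1)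
include hsp hsodd hg

lemma eq_zero_of_skew {v : V} (hv : v ∈ movP g) (h0 : skew g v = 0) : v = 0 := by
  rw [skew_apply, sub_eq_zero] at h0
  have h : ((g * g : isoGroup B) : V ≃ₗ[F] V) v = v := by rw [coe_mul_apply, h0, apply_inv_self]
  obtain ⟨k, rfl⟩ := hsodd
  have hk : ∀ i : ℕ, ((g * g) ^ i : isoGroup B).1 v = v := fun i => by
    induction i with
    | zero => rfl
    | succ i ih => rw [pow_succ, coe_mul_apply, h, ih]
  have h' : v ∈ fixP g := (mem_fixP g).2 (by
    have e : g = (g * g) ^ (k + 1) := by
      rw [← sq, ← pow_mul, show 2 * (k + 1) = (2 * k + 1) + 1 by ring, pow_succ, hg, one_mul]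
    conv_lhs => rw [e]
    exact hk (k + 1))
  exact Submodule.disjoint_def.1 (isCompl g hsp hg).1 v h' hv

lemma twist_nondeg (hB : B.Nondegenerate) : (twist g).Nondegenerate := by
  have h := nondeg_mov g hsp hg hB
  constructor
  · intro u hu
    refine Subtype.ext (eq_zero_of_skew g hsp hsodd hg u.2 ?_)
    exact congrArg Subtype.val (h.1 ⟨skew g u, skew_mem_mov g _⟩ fun w => hu w)
  · intro v hv
    refine Subtype.ext (eq_zero_of_skew g hsp hsodd hg v.2 ?_)
    refine congrArg Subtype.val (h.2 ⟨skew g v, skew_mem_mov g _⟩ fun u => ?_)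
    have e := hv u
    rw [twist_apply, skew_adjoint, neg_eq_zero] at e
    exact e

lemma homs_injective {x y : Subgroup.centralizer ({g} : Set (isoGroup B))}
    (h1 : fixHom g x = fixHom g y) (h2 : twistHom g x = twistHom g y) : x = y := by
  refine hom_injective g hsp hg h1 (iso_ext fun u => Subtype.ext ?_)
  rw [coe_movHom, coe_movHom, ← coe_twistHom, ← coe_twistHom, h2]

lemma orderOf_twistHom_selfC : orderOf (twistHom g (selfC g)) = orderOf g := by
  refine orderOf_eq_orderOf_iff.2 fun i => ⟨fun h => ?_, fun h => ?_⟩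
  · have := homs_injective g hsp hsodd hg (x := selfC g ^ i) (y := 1) (by simp [fixHom_selfC])
      (by simpa using h)
    simpa [selfC] using congrArg Subtype.val this
  · rw [← map_pow, show selfC g ^ i = 1 from Subtype.ext (by simpa [selfC] using h), map_one]

lemma fix_twistHom_selfC : fixP (twistHom g (selfC g)) = ⊥ := by
  rw [Submodule.eq_bot_iff]
  intro u hu
  rw [mem_fixP] at hu
  refine Subtype.ext (Submodule.disjoint_def.1 (isCompl g hsp hg).1 _ ((mem_fixP g).2 ?_) u.2)
  have e := congrArg Subtype.val hu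
  rwa [coe_twistHom] at e

omit hsp hsodd hg

/-- The square classes: the determinant of a Gram matrix of a non-degenerate alternating form is a square. -/
theorem isSquare_det_alt {β : LinearMap.BilinForm F V} (hA : β.IsAlt) (hB : β.Nondegenerate)
    {κ : Type*} [Fintype κ] [DecidableEq κ] (b : Basis κ F V) : IsSquare (LinearMap.BilinForm.toMatrix b β).det := by
  obtain ⟨m, c, hm, hef, hee, hff⟩ := CfsgLib.LinAlg.Witt.exists_symplectic_basis β hA hB.ker_eq_bot
  let e : Fin m ⊕ Fin m ≃ κ := Fintype.equivOfCardEq (by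
    rw [← finrank_eq_card_basis c, ← finrank_eq_card_basis b])
  set c' := c.reindex e
  letI := c'.invertibleToMatrix b
  rw [← LinearMap.BilinForm.toMatrix_mul_basis_toMatrix c' b, Matrix.det_mul, Matrix.det_mul, Matrix.det_transpose]
  have hJ : (LinearMap.BilinForm.toMatrix c' β) =
      (Matrix.fromBlocks (0 : Matrix (Fin m) (Fin m) F) (1 : Matrix (Fin m) (Fin m) F) (-1 : Matrix (Fin m) (Fin m) F) (0 : Matrix (Fin m) (Fin m) F)).submatrix e.symm e.symm := by
    ext i j
    simp only [c', LinearMap.BilinForm.toMatrix_apply, Basis.reindex_apply, Matrix.submatrix_apply]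
    rcases e.symm i with i | i <;> rcases e.symm j with j | j
    · simp [hee]
    · simp [hef, Matrix.one_apply]
    · rw [← LinearMap.IsAlt.neg hA (c (.inl j)) (c (.inr i)), hef]
      by_cases h : j = i
      · subst h; simp
      · simp [h, Matrix.one_apply, Ne.symm h]
    · simp [hff]
  have hd : (Matrix.fromBlocks (0 : Matrix (Fin m) (Fin m) F) (1 : Matrix (Fin m) (Fin m) F) (-1 : Matrix (Fin m) (Fin m) F) (0 : Matrix (Fin m) (Fin m) F)).det = 1 := by
    have h1 : Matrix.fromBlocks (0 : Matrix (Fin m) (Fin m) F) (1 : Matrix (Fin m) (Fin m) F) (-1 : Matrix (Fin m) (Fin m) F) (0 : Matrix (Fin m) (Fin m) F) =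
        Matrix.fromBlocks (1 : Matrix (Fin m) (Fin m) F) 1 0 (1 : Matrix (Fin m) (Fin m) F) *
          Matrix.fromBlocks (1 : Matrix (Fin m) (Fin m) F) 0 (-1) (1 : Matrix (Fin m) (Fin m) F) *
          Matrix.fromBlocks (1 : Matrix (Fin m) (Fin m) F) 1 0 (1 : Matrix (Fin m) (Fin m) F) := by
      simp [Matrix.fromBlocks_multiply]
    rw [h1, Matrix.det_mul, Matrix.det_mul, Matrix.det_fromBlocks_zero₂₁, Matrix.det_fromBlocks_zero₁₂]
    simp
  rw [hJ, Matrix.det_submatrix_equiv_self, hd, mul_one]
  exact IsSquare.mul_self _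

/-- The centre of the isometry group of a non-degenerate alternating form. -/
theorem center_iff {n : ℕ} (hn : 1 ≤ n) (h2 : (2 : F) ≠ 0)
    (e : isoGroup B ≃* Matrix.symplecticGroup (Fin n) F) (hne : Nontrivial V) (x : isoGroup B) :
    x ∈ Subgroup.center (isoGroup B) ↔ x = 1 ∨ x = negI B := by
  have hnegC : negI B ∈ Subgroup.center (isoGroup B) := Subgroup.mem_center_iff.2 fun y => (negI_comm y).symm
  have hne1 : negI B ≠ 1 := fun h => by
    obtain ⟨v, hv⟩ := exists_ne (0 : V)
    have h1 : -v = v := congrArg (fun z : isoGroup B => (z : V ≃ₗ[F] V) v) h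
    rw [neg_eq_iff_add_eq_zero, ← two_smul F] at h1
    exact hv ((smul_eq_zero.1 h1).resolve_left h2)
  refine ⟨fun hx => ?_, ?_⟩
  · by_contra hc
    push Not at hc
    have hcard := Nat.card_congr (Subgroup.centerCongr e).toEquiv
    rw [Classical.Symp.card_center_of_two_ne_zero hn h2] at hcard
    obtain ⟨hx1, hxn⟩ := hc
    have h3 : 3 ≤ Nat.card (Subgroup.center (isoGroup B)) := by
      let f : Fin 3 → Subgroup.center (isoGroup B) := ![⟨1, one_mem _⟩, ⟨negI B, hnegC⟩, ⟨x, hx⟩]
      have hf : Function.Injective f := by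
        intro i j h
        have e := congrArg Subtype.val h
        fin_cases i <;> fin_cases j <;> first
          | rfl
          | exact absurd e hne1.symm
          | exact absurd e hne1
          | exact absurd e hx1.symm
          | exact absurd e hx1
          | exact absurd e hxn.symm
          | exact absurd e hxn
      simpa using Nat.card_le_card_of_injective f hf
    omega
  · rintro (rfl | rfl)
    · exact one_mem _
    · exact hnegC

/-- In odd dimension every square lies in the derived group. -/
theorem sq_mem_commutator {G : Type*} [Group G] {n : ℕ} (hn : 1 ≤ n) (h2 : (2 : F) ≠ 0)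
    (e : G ≃* Cfsg.isometryGroup F (Cfsg.quadFormOdd n F)) (a : G) : a * a ∈ commutator G := by
  have h : e (a * a) ∈ commutator (Cfsg.isometryGroup F (Cfsg.quadFormOdd n F)) := by
    show e (a * a) ∈ Cfsg.Omega F (Cfsg.quadFormOdd n F)
    have hQ := CfsgLib.OrthGeo.isNondegenerateQuadraticForm_quadFormOdd (F := F) n h2
    rw [← Classical.Orth.ker_classHom hQ (Classical.Orth.not_exc_of_two_ne_zero h2), MonoidHom.mem_ker, map_mul,
      map_mul]
    generalize Classical.Orth.classHom hQ (Classical.Orth.not_exc_of_two_ne_zero h2) (e a) = z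
    revert z
    decide
  have h' := Subgroup.mem_map_of_mem e.symm.toMonoidHom h
  rw [commutator_def, Subgroup.map_commutator] at h'
  rw [commutator_def]
  simpa using Subgroup.commutator_mono le_top le_top h'

end CfsgLib.PrimeGraphSpO
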